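import Cfsg.Agent.H97.M22.Extra
import Cfsg.Agent.H73.CharPLocal
import Cfsg.Agent.H74.CharP
import Cfsg.Agent.H19.Cores

/-!
The generalized Fitting subgroup of the centraliser of a product of two commuting members.
-/

set_option autoImplicit false
set_option linter.unusedSectionVars false

namespace Cfsg.Agent.H97.M22

open Cfsg Cfsg.Agent.H17.UPoints Cfsg.Agent.H43.FischerTwins

variable {G : Type*} [Group G] [Finite G] {F : Type} [Field F] [Fintype F] [DecidableEq F]

namespace Frame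

variable {D : Set G} {d a : G} {hF : Fintype.card F = 4} (P : Frame D d a hF) (hD : Data D hF)
include P hD

theorem pCore_eq : Cfsg.pCore 2 ↥P.C = (P.E hD).subgroupOf P.C := by
  haveI : Fact (Nat.Prime 2) := ⟨Nat.prime_two⟩
  refine le_antisymm ?_ (H74.le_pCore_of_normal (P.E_normal hD) ?_)
  · have hN : (Cfsg.pCore 2 ↥P.C).Normal := H19.pCore_normal 2 _
    have hp : IsPGroup 2 ↥(Cfsg.pCore 2 ↥P.C) := H19.pCore_isPGroup 2
    -- the part inside `K` lies in `E`
    have hin : ∀ c : ↥P.C, c ∈ Cfsg.pCore 2 ↥P.C → ∀ h : (c : G) ∈ P.K,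
        P.pi hD ⟨c, h⟩ = 1 := by
      haveI := simple_SU_four hF
      set L := ((Cfsg.pCore 2 ↥P.C).comap (Subgroup.inclusion (P.K_le_C hD))).map (P.pi hD) with hL
      have hLn : L.Normal := (hN.comap _).map _ (P.pi_surjective hD)
      have hLp : IsPGroup 2 ↥L :=
        (hp.comap_of_injective _ (Subgroup.inclusion_injective (P.K_le_C hD))).map _
      rcases hLn.eq_bot_or_eq_top with h | h
      · intro c hc hcK
        exact Subgroup.mem_bot.1 (h.le (Subgroup.mem_map_of_mem _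
          (show (⟨c, hcK⟩ : ↥P.K) ∈ (Cfsg.pCore 2 ↥P.C).comap
            (Subgroup.inclusion (P.K_le_C hD)) from hc)))
      · exfalso
        obtain ⟨n, hn⟩ := IsPGroup.iff_card.1 hLp
        rw [h, Subgroup.card_top, card_SU_four hF] at hn
        have h3 : 3 ∣ 2 ^ n := hn ▸ (by norm_num : 3 ∣ 25920)
        have := Nat.prime_three.dvd_of_dvd_pow h3
        norm_num at this
    intro c hc
    rw [Subgroup.mem_subgroupOf]
    refine (P.rho_eq_one_iff hD c).1 (MulEquiv.ext fun g => ?_)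
    obtain ⟨x, rfl⟩ := P.pi_surjective hD g
    rw [P.rho_apply, MulAut.one_apply]
    have hK : ((c * Subgroup.inclusion (P.K_le_C hD) x * c⁻¹ *
        (Subgroup.inclusion (P.K_le_C hD) x)⁻¹ : ↥P.C) : G) ∈ P.K :=
      mul_mem (P.conjK hD c x).2 (inv_mem x.2)
    have hmem : c * Subgroup.inclusion (P.K_le_C hD) x * c⁻¹ *
        (Subgroup.inclusion (P.K_le_C hD) x)⁻¹ ∈ Cfsg.pCore 2 ↥P.C := by
      have h1 := mul_mem hc (hN.conj_mem _ (inv_mem hc) (Subgroup.inclusion (P.K_le_C hD) x))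
      simpa [mul_assoc] using h1
    have h2 := hin _ hmem hK
    rw [show (⟨_, hK⟩ : ↥P.K) = P.conjK hD c x * x⁻¹ from Subtype.ext rfl, map_mul, map_inv,
      mul_inv_eq_one] at h2
    exact h2
  · refine IsPGroup.of_card (n := 10) ?_
    rw [Nat.card_congr (Subgroup.subgroupOfEquivOfLe (P.E_le_C hD)).toEquiv, P.card_E hD]

theorem centralizer_le : Subgroup.centralizer (((P.E hD).subgroupOf P.C : Subgroup ↥P.C) :
    Set ↥P.C) ≤ (P.E hD).subgroupOf P.C := by
  intro c hc
  have hc' : ∀ y ∈ P.E hD, y * (c : G) = (c : G) * y := fun y hy =>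
    congrArg Subtype.val (Subgroup.mem_centralizer_iff.1 hc ⟨y, P.E_le_C hD hy⟩ hy)
  have hK : (c : G) ∈ P.K := P.mem_K_iff.2
    ⟨(hc' d (P.V_le_E hD (Subgroup.subset_closure (by simp)))).symm,
      (hc' a (P.V_le_E hD (Subgroup.subset_closure (by simp)))).symm⟩
  exact Subgroup.mem_map.2 ⟨⟨c, hK⟩, P.mem_ker_of_commute hD fun e he =>
    commute_coe.1 (hc' e (Subgroup.mem_map_of_mem _ he)).symm, rfl⟩

theorem fitting_eq : Cfsg.generalizedFittingSubgroup ↥P.C = (P.E hD).subgroupOf P.C := by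
  haveI : Fact (Nat.Prime 2) := ⟨Nat.prime_two⟩
  rw [← P.pCore_eq hD]
  exact H73.charP_iff_generalizedFitting.1 (by rw [P.pCore_eq hD]; exact P.centralizer_le hD)

end Frame

end Cfsg.Agent.H97.M22
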