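import Cfsg.Agent.H97.M22.Kernel
import Cfsg.Agent.H97.M22.AutFour

/-!
The centraliser of a product of two commuting members in a group of type M(22).
-/

set_option autoImplicit false
set_option linter.unusedSectionVars false

namespace Cfsg.Agent.H97.M22

open Cfsg Cfsg.Agent.H17.UPoints Cfsg.Agent.H43.FischerTwins

variable {G : Type*} [Group G] [Finite G] {F : Type} [Field F] [Fintype F] [DecidableEq F]

namespace Frame

variable {D : Set G} {d a : G} {hF : Fintype.card F = 4} (P : Frame D d a hF) (hD : Data D hF)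

/-- The centraliser of the product. -/
abbrev C (_P : Frame D d a hF) : Subgroup G := Subgroup.centralizer ({d * a} : Set G)

/-- The group `E`. -/
noncomputable abbrev E : Subgroup G := (P.pi hD).ker.map P.K.subtype

include P hD

theorem K_le_C : P.K ≤ P.C := fun _ hg =>
  Subgroup.mem_centralizer_singleton_iff.2 ((P.mem_K_iff.1 hg).1.mul_right (P.mem_K_iff.1 hg).2).eq

theorem perm_of_mem_C {c : G} (hc : c ∈ P.C) :
    (c * d * c⁻¹ = d ∧ c * a * c⁻¹ = a) ∨ (c * d * c⁻¹ = a ∧ c * a * c⁻¹ = d) := by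
  have h1 : (c * d * c⁻¹) * (c * a * c⁻¹) = d * a := by
    calc (c * d * c⁻¹) * (c * a * c⁻¹) = c * (d * a) * c⁻¹ := by group
      _ = d * a := by rw [Subgroup.mem_centralizer_singleton_iff.1 hc, mul_inv_cancel_right]
  refine hD.pairs (hD.conj c d P.hd) (hD.conj c a P.ha.1) P.hd P.ha.1
    ((H17.commute_conj c).2 P.ha.2.2) ?_ P.ha.2.2 h1
  intro h
  exact P.ha.2.1.symm (mul_left_cancel (mul_right_cancel h))

theorem conj_mem_K_of_mem_C {c : G} (hc : c ∈ P.C) {x : G} (hx : x ∈ P.K) :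
    c * x * c⁻¹ ∈ P.K := by
  obtain ⟨h1, h2⟩ := P.mem_K_iff.1 hx
  rcases P.perm_of_mem_C hD hc with ⟨e1, e2⟩ | ⟨e1, e2⟩
  · refine P.mem_K_iff.2 ⟨?_, ?_⟩
    · have := (H17.commute_conj c).2 h1
      rwa [e1] at this
    · have := (H17.commute_conj c).2 h2
      rwa [e2] at this
  · exact P.conj_mem_K hD e1 e2 ⟨x, hx⟩

/-- Conjugation by an element of `C` on `K`. -/
def conjK (c : ↥P.C) : ↥P.K →* ↥P.K :=
  (((MulAut.conj (c : G)).toMonoidHom).comp P.K.subtype).codRestrict P.K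
    fun x => P.conj_mem_K_of_mem_C hD c.2 x.2

theorem conjK_surjective (c : ↥P.C) : Function.Surjective (P.conjK hD c) := fun y =>
  ⟨P.conjK hD c⁻¹ y, Subtype.ext (by
    show (c : G) * (((c⁻¹ : ↥P.C) : G) * (y : G) * ((c⁻¹ : ↥P.C) : G)⁻¹) * (c : G)⁻¹ = (y : G)
    simp [mul_assoc])⟩

theorem ker_le (c : ↥P.C) :
    (P.pi hD).ker ≤ ((P.pi hD).comp (P.conjK hD c)).ker := by
  haveI := simple_SU_four hF
  have hf : Function.Surjective ((P.pi hD).comp (P.conjK hD c)) :=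
    (P.pi_surjective hD).comp (P.conjK_surjective hD c)
  rcases ((MonoidHom.normal_ker (P.pi hD)).map _ hf).eq_bot_or_eq_top with h | h
  · exact fun x hx => MonoidHom.mem_ker.2
      (Subgroup.mem_bot.1 (h.le (Subgroup.mem_map_of_mem _ hx)))
  · exfalso
    have hle := Nat.le_of_dvd (by rw [P.card_ker hD]; norm_num)
      (Subgroup.card_map_dvd (H := (P.pi hD).ker) ((P.pi hD).comp (P.conjK hD c)))
    rw [h, Subgroup.card_top, card_SU_four hF, P.card_ker hD] at hle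
    omega

/-- The action of `C` on the quotient of `K`. -/
noncomputable def rhoFun (c : ↥P.C) : ↥(Cfsg.SU 4 F 2) →* ↥(Cfsg.SU 4 F 2) :=
  (P.pi hD).liftOfSurjective (P.pi_surjective hD) ⟨(P.pi hD).comp (P.conjK hD c), P.ker_le hD c⟩

theorem rhoFun_apply (c : ↥P.C) (x : ↥P.K) :
    P.rhoFun hD c (P.pi hD x) = P.pi hD (P.conjK hD c x) :=
  MonoidHom.liftOfRightInverse_comp_apply _ _ _ _ x

theorem rhoFun_mul (c c' : ↥P.C) :
    P.rhoFun hD (c * c') = (P.rhoFun hD c).comp (P.rhoFun hD c') := by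
  refine MonoidHom.ext fun h => ?_
  obtain ⟨x, rfl⟩ := P.pi_surjective hD h
  rw [MonoidHom.comp_apply, rhoFun_apply, rhoFun_apply, rhoFun_apply]
  congr 1
  refine Subtype.ext ?_
  show ((c * c' : ↥P.C) : G) * (x : G) * ((c * c' : ↥P.C) : G)⁻¹ =
    (c : G) * ((c' : G) * (x : G) * (c' : G)⁻¹) * (c : G)⁻¹
  rw [Subgroup.coe_mul]
  group

theorem rhoFun_one : P.rhoFun hD 1 = MonoidHom.id _ := by
  refine MonoidHom.ext fun h => ?_
  obtain ⟨x, rfl⟩ := P.pi_surjective hD h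
  rw [rhoFun_apply, MonoidHom.id_apply]
  congr 1
  exact Subtype.ext (by
    show ((1 : ↥P.C) : G) * (x : G) * ((1 : ↥P.C) : G)⁻¹ = (x : G)
    simp)

/-- The action of `C` by automorphisms of `SU 4`. -/
noncomputable def rho : ↥P.C →* MulAut ↥(Cfsg.SU 4 F 2) :=
  MonoidHom.mk' (fun c => MonoidHom.toMulEquiv (P.rhoFun hD c) (P.rhoFun hD c⁻¹)
      (by rw [← rhoFun_mul, inv_mul_cancel, rhoFun_one])
      (by rw [← rhoFun_mul, mul_inv_cancel, rhoFun_one]))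
    fun c c' => MulEquiv.ext fun h => DFunLike.congr_fun (P.rhoFun_mul hD c c') h

theorem rho_apply (c : ↥P.C) (x : ↥P.K) :
    P.rho hD c (P.pi hD x) = P.pi hD (P.conjK hD c x) := P.rhoFun_apply hD c x

theorem rho_eq_one_iff (c : ↥P.C) : P.rho hD c = 1 ↔ (c : G) ∈ P.E hD := by
  constructor
  · intro h
    have h' : ∀ x : ↥P.K, P.pi hD (P.conjK hD c x) = P.pi hD x := fun x => by
      rw [← P.rho_apply hD c x, h]; rfl
    rcases P.perm_of_mem_C hD c.2 with ⟨e1, e2⟩ | ⟨e1, e2⟩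
    · have hK : (c : G) ∈ P.K :=
        P.mem_K_iff.2 ⟨mul_inv_eq_iff_eq_mul.1 e1, mul_inv_eq_iff_eq_mul.1 e2⟩
      refine Subgroup.mem_map.2 ⟨⟨c, hK⟩, MonoidHom.mem_ker.2 ?_, rfl⟩
      rw [← Subgroup.mem_bot, ← center_SU_four hF, Subgroup.mem_center_iff]
      intro g
      obtain ⟨x, rfl⟩ := P.pi_surjective hD g
      have hx := h' x
      rw [show P.conjK hD c x = (⟨c, hK⟩ : ↥P.K) * x * (⟨c, hK⟩ : ↥P.K)⁻¹ from Subtype.ext rfl,
        map_mul, map_mul, map_inv, mul_inv_eq_iff_eq_mul] at hx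
      exact hx.symm
    · exact (P.no_swap hD e1 e2 h').elim
  · intro h
    obtain ⟨e, he, hec⟩ := Subgroup.mem_map.1 h
    refine MulEquiv.ext fun g => ?_
    obtain ⟨x, rfl⟩ := P.pi_surjective hD g
    rw [P.rho_apply, MulAut.one_apply,
      show P.conjK hD c x = e * x * e⁻¹ from Subtype.ext (by
        show (c : G) * (x : G) * (c : G)⁻¹ = _
        rw [← hec]; rfl),
      map_mul, map_mul, map_inv, MonoidHom.mem_ker.1 he, one_mul, inv_one, mul_one]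

theorem exists_swap_mem : ∃ s ∈ P.C, s * d * s⁻¹ = a ∧ s * a * s⁻¹ = d := by
  obtain ⟨g, g1, g2⟩ := hD.exists_swap P.hd P.ha
  refine ⟨g, Subgroup.mem_centralizer_singleton_iff.2 (mul_inv_eq_iff_eq_mul.1 ?_), g1, g2⟩
  calc g * (d * a) * g⁻¹ = (g * d * g⁻¹) * (g * a * g⁻¹) := by group
    _ = d * a := by rw [g1, g2, P.ha.2.2.eq]

theorem index_K : (P.K.subgroupOf P.C).index = 2 := by
  obtain ⟨s, hs, s1, s2⟩ := P.exists_swap_mem hD
  refine Subgroup.index_eq_two_iff.2 ⟨⟨s, hs⟩, fun b => ?_⟩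
  have key : ∀ g : ↥P.C, g ∈ P.K.subgroupOf P.C ↔ (g : G) * d * (g : G)⁻¹ = d := by
    intro g
    rw [Subgroup.mem_subgroupOf, P.mem_K_iff]
    refine ⟨fun h => mul_inv_eq_iff_eq_mul.2 h.1.eq, fun h => ?_⟩
    rcases P.perm_of_mem_C hD g.2 with ⟨e1, e2⟩ | ⟨e1, e2⟩
    · exact ⟨mul_inv_eq_iff_eq_mul.1 e1, mul_inv_eq_iff_eq_mul.1 e2⟩
    · exact absurd (e1.symm.trans h) P.ha.2.1
  rw [key, key]
  have hbs : ((b * ⟨s, hs⟩ : ↥P.C) : G) * d * ((b * ⟨s, hs⟩ : ↥P.C) : G)⁻¹ =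
      (b : G) * a * (b : G)⁻¹ := by
    rw [Subgroup.coe_mul]
    calc (b : G) * s * d * ((b : G) * s)⁻¹ = (b : G) * (s * d * s⁻¹) * (b : G)⁻¹ := by group
      _ = _ := by rw [s1]
  rw [hbs]
  rcases P.perm_of_mem_C hD b.2 with ⟨e1, e2⟩ | ⟨e1, e2⟩
  · exact Or.inr ⟨e1, fun h => P.ha.2.1 (e2.symm.trans h)⟩
  · exact Or.inl ⟨e2, fun h => P.ha.2.1 (e1.symm.trans h)⟩

theorem E_le_K : P.E hD ≤ P.K := Subgroup.map_subtype_le _

theorem E_le_C : P.E hD ≤ P.C := (P.E_le_K hD).trans (P.K_le_C hD)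

theorem E_conj {c : G} (hc : c ∈ P.C) {x : G} (hx : x ∈ P.E hD) : c * x * c⁻¹ ∈ P.E hD := by
  obtain ⟨e, he, rfl⟩ := Subgroup.mem_map.1 hx
  exact Subgroup.mem_map.2 ⟨P.conjK hD ⟨c, hc⟩ e, P.ker_le hD ⟨c, hc⟩ he, rfl⟩

theorem E_normal : ((P.E hD).subgroupOf P.C).Normal :=
  ⟨fun n hn g => Subgroup.mem_subgroupOf.2 (P.E_conj hD g.2 (Subgroup.mem_subgroupOf.1 hn))⟩

theorem card_E : Nat.card ↥(P.E hD) = 2 ^ 10 := by
  rw [Subgroup.card_map_of_injective P.K.subtype_injective, P.card_ker hD]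
  norm_num

theorem V_le_E : Subgroup.closure ({d, a} : Set G) ≤ P.E hD := fun g hg =>
  Subgroup.mem_map.2 ⟨⟨g, P.V_le hD hg⟩, P.mem_ker_of_mem_V hD hg, rfl⟩

theorem card_C : Nat.card ↥P.C = 2 * (1024 * 25920) := by
  have h := (P.K.subgroupOf P.C).card_mul_index
  rw [P.index_K hD, Nat.card_congr (Subgroup.subgroupOfEquivOfLe (P.K_le_C hD)).toEquiv,
    P.card_K hD] at h
  omega

theorem ker_rho : (P.rho hD).ker = (P.E hD).subgroupOf P.C := by
  ext c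
  exact (MonoidHom.mem_ker.trans (P.rho_eq_one_iff hD c))

theorem rho_surjective : Function.Surjective (P.rho hD) := by
  obtain ⟨e⟩ := nonempty_SU_equiv_PSU hF
  have h := (P.rho hD).ker.card_mul_index
  rw [Subgroup.index_ker, P.ker_rho hD, P.card_C hD,
    Nat.card_congr (Subgroup.subgroupOfEquivOfLe (P.E_le_C hD)).toEquiv, P.card_E hD] at h
  rw [show (2 : ℕ) ^ 10 = 1024 from rfl] at h
  refine MonoidHom.range_eq_top.1 (Subgroup.eq_top_of_le_card _ ?_)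
  rw [Nat.card_congr (MulAut.congr e).toEquiv]
  exact (card_aut_PSU_four_le hF).trans (by omega)

theorem nonempty_quotient_equiv [((P.E hD).subgroupOf P.C).Normal] :
    Nonempty (↥P.C ⧸ (P.E hD).subgroupOf P.C ≃* MulAut (Cfsg.PSU 4 F 2)) := by
  obtain ⟨e⟩ := nonempty_SU_equiv_PSU hF
  exact ⟨((QuotientGroup.quotientMulEquivOfEq (P.ker_rho hD).symm).trans
    (QuotientGroup.quotientKerEquivOfSurjective (P.rho hD) (P.rho_surjective hD))).trans
      (MulAut.congr e)⟩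

theorem E_comm {x y : G} (hx : x ∈ P.E hD) (hy : y ∈ P.E hD) :
    x * y * x⁻¹ * y⁻¹ ∈ Subgroup.closure ({d, a} : Set G) := by
  obtain ⟨u, hu, rfl⟩ := Subgroup.mem_map.1 hx
  obtain ⟨v, hv, rfl⟩ := Subgroup.mem_map.1 hy
  exact P.ker_comm hD hu hv

theorem E_sq {x : G} (hx : x ∈ P.E hD) : x ^ 2 ∈ Subgroup.closure ({d, a} : Set G) := by
  obtain ⟨u, hu, rfl⟩ := Subgroup.mem_map.1 hx
  rw [pow_two]
  exact P.ker_sq hD hu

end Frame

end Cfsg.Agent.H97.M22
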