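import Cfsg.Agent.H97.M22.Cent
import Cfsg.Agent.H97.M22.Diag
import Cfsg.Agent.H24.Extraspecial
import Cfsg.Agent.H58.ExtraspecialCongr

/-!
The normal subgroup of order `2 ^ 10` of the centraliser of a product of two commuting members.
-/

set_option autoImplicit false
set_option linter.unusedSectionVars false

namespace Cfsg.Agent.H97.M22

open Cfsg Cfsg.Agent.H17.UPoints Cfsg.Agent.H43.FischerTwins

variable {G : Type*} [Group G] [Finite G] {F : Type} [Field F] [Fintype F] [DecidableEq F]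

namespace Frame

variable {D : Set G} {d a : G} {hF : Fintype.card F = 4} (P : Frame D d a hF) (hD : Data D hF)
include P hD

theorem V_central {z x : G} (hz : z ∈ Subgroup.closure ({d, a} : Set G)) (hx : x ∈ P.K) :
    Commute x z := by
  obtain ⟨h1, h2⟩ := P.mem_K_iff.1 hx
  rcases (P.mem_V_iff hD).1 hz with rfl | rfl | rfl | rfl
  · exact Commute.one_right x
  · exact h1
  · exact h2
  · exact h1.mul_right h2

theorem V_sq {z : G} (hz : z ∈ Subgroup.closure ({d, a} : Set G)) : z * z = 1 := by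
  have hdd := hD.sq P.hd
  have haa := hD.sq P.ha.1
  rcases (P.mem_V_iff hD).1 hz with rfl | rfl | rfl | rfl
  · exact one_mul 1
  · exact hdd
  · exact haa
  · rw [P.ha.2.2.symm.mul_mul_mul_comm, hdd, haa, one_mul]

theorem exists_noncommute : ∃ e ∈ (P.pi hD).ker, ∃ f ∈ (P.pi hD).ker, e * f ≠ f * e := by
  obtain ⟨l, hl0, hl1⟩ := exists_gen hF
  obtain ⟨z, hz⟩ := exists_one hF (v := (Pi.single 0 1 : Fin 4 → F)) (fun h => by
    have h' := congrFun h 0
    simp at h')
  obtain ⟨e, he, hem⟩ := P.exists_ker_muP hD (Pi.single 0 1)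
  obtain ⟨f, hf, hfm⟩ := P.exists_ker_muP hD (l • z)
  refine ⟨e, he, f, hf, fun h => radP_not_commute hF ((P.mem_ker_pi hD e).1 he)
    ((P.mem_ker_pi hD f).1 hf) ?_ (by rw [← map_mul, ← map_mul, h])⟩
  rw [hem, hfm, herm_smul_right hF, herm_smul_left hF, hz, ← herm_conj hF z, hz, one_pow, mul_one,
    mul_one]
  exact fun h => hl1 (mul_left_cancel₀ hl0 (by rw [mul_one, ← pow_two, h]))

/-- The commutators of `E` are the product of the two members or trivial. -/
theorem E_comm_j {x y : G} (hx : x ∈ P.E hD) (hy : y ∈ P.E hD) :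
    x * y * x⁻¹ * y⁻¹ = 1 ∨ x * y * x⁻¹ * y⁻¹ = d * a := by
  classical
  choose σ hσk hσm using fun m => P.exists_ker_muP hD m
  let cm : G → G → G := fun u v => u * v * u⁻¹ * v⁻¹
  have hcv : ∀ {e f : ↥P.K}, e ∈ (P.pi hD).ker → f ∈ (P.pi hD).ker →
      cm e f ∈ Subgroup.closure ({d, a} : Set G) := fun he hf => P.ker_comm hD he hf
  have hmulL : ∀ {e e' f : ↥P.K}, e ∈ (P.pi hD).ker → e' ∈ (P.pi hD).ker → f ∈ (P.pi hD).ker →
      cm ((e * e' : ↥P.K) : G) f = cm e f * cm e' f := by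
    intro e e' f he he' hf
    have hc := P.V_central hD (hcv he' hf) e.2
    have hc2 := P.V_central hD (hcv he' hf) (P.V_le hD (hcv he hf))
    calc cm ((e * e' : ↥P.K) : G) f = (e : G) * cm e' f * (e : G)⁻¹ * cm e f := by
          simp only [cm, Subgroup.coe_mul]; group
      _ = cm e' f * cm e f := by rw [hc.eq, mul_inv_cancel_right]
      _ = cm e f * cm e' f := hc2.symm.eq
  have hmulR : ∀ {e f f' : ↥P.K}, e ∈ (P.pi hD).ker → f ∈ (P.pi hD).ker → f' ∈ (P.pi hD).ker →
      cm e ((f * f' : ↥P.K) : G) = cm e f * cm e f' := by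
    intro e f f' he hf hf'
    have hc := P.V_central hD (hcv he hf') f.2
    calc cm e ((f * f' : ↥P.K) : G) = cm e f * ((f : G) * cm e f' * (f : G)⁻¹) := by
          simp only [cm, Subgroup.coe_mul]; group
      _ = cm e f * cm e f' := by rw [hc.eq, mul_inv_cancel_right]
  have hcong : ∀ {e e' : ↥P.K}, e ∈ (P.pi hD).ker → e' ∈ (P.pi hD).ker →
      muP hF (P.phi e) = muP hF (P.phi e') → ∃ v : ↥P.K,
        (v : G) ∈ Subgroup.closure ({d, a} : Set G) ∧ v ∈ (P.pi hD).ker ∧ e' = e * v := by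
    intro e e' he he' h
    refine ⟨e⁻¹ * e', ?_, mul_mem (inv_mem he) he', (mul_inv_cancel_left e e').symm⟩
    rw [P.mem_V_iff_muP hD (mul_mem (inv_mem he) he'), map_mul, map_inv,
      muP_mul hF (inv_mem ((P.mem_ker_pi hD e).1 he)) ((P.mem_ker_pi hD e').1 he'),
      muP_inv hF ((P.mem_ker_pi hD e).1 he), h]
    exact funext fun i => add_self hF _
  have hcL : ∀ {v : ↥P.K} (f : ↥P.K), (v : G) ∈ Subgroup.closure ({d, a} : Set G) →
      cm v f = 1 := by
    intro v f hv
    simp only [cm]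
    rw [(P.V_central hD hv f.2).symm.eq, mul_inv_cancel_right, mul_inv_cancel]
  have hcR : ∀ {v : ↥P.K} (f : ↥P.K), (v : G) ∈ Subgroup.closure ({d, a} : Set G) →
      cm f v = 1 := by
    intro v f hv
    simp only [cm]
    rw [(P.V_central hD hv f.2).eq, mul_inv_cancel_right, mul_inv_cancel]
  obtain ⟨β, hβdef⟩ : ∃ β : (Fin 4 → F) → (Fin 4 → F) → G,
      ∀ m n, β m n = cm (σ m) (σ n) := ⟨fun m n => cm (σ m) (σ n), fun _ _ => rfl⟩
  have hβ : ∀ {e f : ↥P.K}, e ∈ (P.pi hD).ker → f ∈ (P.pi hD).ker →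
      cm e f = β (muP hF (P.phi e)) (muP hF (P.phi f)) := by
    intro e f he hf
    obtain ⟨v, hv, hvk, ev⟩ := hcong (hσk _) he (hσm (muP hF (P.phi e)))
    obtain ⟨w, hw, hwk, ew⟩ := hcong (hσk _) hf (hσm (muP hF (P.phi f)))
    rw [hβdef]
    conv_lhs => rw [ev, ew]
    rw [hmulL (hσk _) hvk (mul_mem (hσk _) hwk), hcL _ hv, mul_one,
      hmulR (hσk _) (hσk _) hwk, hcR _ hw, mul_one]
  have hmu : ∀ {e f : ↥P.K}, e ∈ (P.pi hD).ker → f ∈ (P.pi hD).ker →
      muP hF (P.phi (e * f)) = muP hF (P.phi e) + muP hF (P.phi f) := fun {e f} he hf => by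
    rw [map_mul, muP_mul hF ((P.mem_ker_pi hD e).1 he) ((P.mem_ker_pi hD f).1 hf)]
  obtain ⟨z, hz⟩ := pairing_values hF (β := β)
    (fun m n p => by
      have h := hβ (mul_mem (hσk m) (hσk n)) (hσk p)
      rw [hmu (hσk m) (hσk n), hσm, hσm, hσm] at h
      rw [← h, hmulL (hσk m) (hσk n) (hσk p), hβdef, hβdef])
    (fun m n p => by
      have h := hβ (hσk m) (mul_mem (hσk n) (hσk p))
      rw [hmu (hσk n) (hσk p), hσm, hσm, hσm] at h
      rw [← h, hmulR (hσk m) (hσk n) (hσk p), hβdef, hβdef])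
    (fun m => by rw [hβdef]; simp only [cm]; group)
    (fun m n => by rw [hβdef]; exact P.V_sq hD (hcv (hσk m) (hσk n)))
    (fun h m n => by
      obtain ⟨k, hk, -⟩ := P.exists_blk hD h
      have hn := MonoidHom.normal_ker (P.pi hD)
      have hm1 := hn.conj_mem _ (hσk m) k
      have hn1 := hn.conj_mem _ (hσk n) k
      have e := hβ hm1 hn1
      have eq : ∀ x, muP hF (P.phi (k * σ x * k⁻¹)) = act h x := fun x => by
        rw [map_mul, map_mul, map_inv, hk, (muP_conj hF h ((P.mem_ker_pi hD _).1 (hσk x))).2, hσm]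
      rw [eq, eq] at e
      rw [← e, hβdef]
      have hc := P.V_central hD (hcv (hσk m) (hσk n)) k.2
      calc cm ((k * σ m * k⁻¹ : ↥P.K) : G) ((k * σ n * k⁻¹ : ↥P.K) : G)
          = (k : G) * cm (σ m) (σ n) * (k : G)⁻¹ := by
            simp only [cm, Subgroup.coe_mul, Subgroup.coe_inv]; group
        _ = cm (σ m) (σ n) := by rw [hc.eq, mul_inv_cancel_right])
  have hval : ∀ {e f : ↥P.K}, e ∈ (P.pi hD).ker → f ∈ (P.pi hD).ker →
      cm e f = 1 ∨ cm e f = z := fun he hf => by rw [hβ he hf]; exact hz _ _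
  obtain ⟨e₀, he₀, f₀, hf₀, hne⟩ := P.exists_noncommute hD
  have hne' : cm e₀ f₀ ≠ 1 := fun h => hne (Subtype.ext (by
    show (e₀ : G) * f₀ = f₀ * e₀
    rwa [show cm (e₀ : G) f₀ = (e₀ : G) * f₀ * ((f₀ : G) * e₀)⁻¹ by
      simp only [cm]; group, mul_inv_eq_one] at h))
  have hz0 : cm e₀ f₀ = z := (hval he₀ hf₀).resolve_left hne'
  have hzV : z ∈ Subgroup.closure ({d, a} : Set G) := hz0 ▸ hcv he₀ hf₀
  obtain ⟨s, hs, s1, s2⟩ := P.exists_swap_mem hD
  have hsz : s * z * s⁻¹ = z := by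
    have he1 := P.ker_le hD ⟨s, hs⟩ he₀
    have hf1 := P.ker_le hD ⟨s, hs⟩ hf₀
    have key : s * z * s⁻¹ = cm (P.conjK hD ⟨s, hs⟩ e₀) (P.conjK hD ⟨s, hs⟩ f₀) := by
      rw [← hz0]
      show s * cm (e₀ : G) f₀ * s⁻¹ = cm (s * (e₀ : G) * s⁻¹) (s * (f₀ : G) * s⁻¹)
      simp only [cm]; group
    rw [key]
    exact (hval he1 hf1).resolve_left fun h => hne' (by
      rw [← key] at h
      rw [hz0]
      calc z = s⁻¹ * (s * z * s⁻¹) * s := by group
        _ = 1 := by rw [h]; group)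
  have hzj : z = d * a := by
    rcases (P.mem_V_iff hD).1 hzV with h | h | h | h
    · exact absurd (hz0.trans h) hne'
    · rw [h, s1] at hsz; exact absurd hsz P.ha.2.1
    · rw [h, s2] at hsz; exact absurd hsz.symm P.ha.2.1
    · exact h
  obtain ⟨u, hu, rfl⟩ := Subgroup.mem_map.1 hx
  obtain ⟨v, hv, rfl⟩ := Subgroup.mem_map.1 hy
  exact hzj ▸ hval hu hv

theorem j_mem_E : d * a ∈ P.E hD :=
  P.V_le_E hD (mul_mem (Subgroup.subset_closure (by simp)) (Subgroup.subset_closure (by simp)))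

/-- The squares of `E` are the product of the two members or trivial. -/
theorem E_sq_j {x : G} (hx : x ∈ P.E hD) : x * x = 1 ∨ x * x = d * a := by
  classical
  have hjj : (d * a) * (d * a) = 1 :=
    P.V_sq hD (mul_mem (Subgroup.subset_closure (by simp)) (Subgroup.subset_closure (by simp)))
  obtain ⟨J, hJ⟩ : ∃ J : G → Prop, ∀ g, J g ↔ (g = 1 ∨ g = d * a) :=
    ⟨fun g => g = 1 ∨ g = d * a, fun _ => Iff.rfl⟩
  rw [← hJ]
  have hmul : ∀ {g k : G}, J g → J k → J (g * k) := by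
    intro g k hg hk
    rw [hJ] at hg hk ⊢
    rcases hg with rfl | rfl <;> rcases hk with rfl | rfl
    · exact Or.inl (one_mul 1)
    · exact Or.inr (one_mul _)
    · exact Or.inr (mul_one _)
    · exact Or.inl hjj
  -- the square of a product
  have hprod : ∀ {e f : ↥P.K}, e ∈ (P.pi hD).ker → f ∈ (P.pi hD).ker →
      ∃ c, J c ∧ ((e * f * (e * f) : ↥P.K) : G) = ((e * e : ↥P.K) : G) * ((f * f : ↥P.K) : G) * c := by
    intro e f he hf
    have hc := P.E_comm_j hD (x := ((e⁻¹ : ↥P.K) : G)) (y := (f : G))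
      (Subgroup.mem_map_of_mem _ (inv_mem he)) (Subgroup.mem_map_of_mem _ hf)
    refine ⟨_, (hJ _).2 hc, ?_⟩
    have hcV := P.ker_comm hD (inv_mem he) hf
    have hcc : Commute (((f * f : ↥P.K)) : G)
        (((e⁻¹ : ↥P.K) : G) * (f : G) * ((e⁻¹ : ↥P.K) : G)⁻¹ * (f : G)⁻¹) :=
      P.V_central hD (z := ((e⁻¹ : ↥P.K) : G) * (f : G) * ((e⁻¹ : ↥P.K) : G)⁻¹ * (f : G)⁻¹)
        (by simpa using hcV) (f * f).2
    rw [mul_assoc _ (((f * f : ↥P.K)) : G), hcc.eq]
    simp only [Subgroup.coe_mul, Subgroup.coe_inv]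
    group
  let Good : (Fin 4 → F) → Prop := fun m =>
    ∀ e ∈ (P.pi hD).ker, muP hF (P.phi e) = m → J ((e * e : ↥P.K) : G)
  -- squares depend on the module vector
  have hdep : ∀ {e e' : ↥P.K}, e ∈ (P.pi hD).ker → e' ∈ (P.pi hD).ker →
      muP hF (P.phi e) = muP hF (P.phi e') → ((e * e : ↥P.K) : G) = ((e' * e' : ↥P.K) : G) := by
    intro e e' he he' h
    obtain ⟨v, hv⟩ : ∃ v, v = e⁻¹ * e' := ⟨_, rfl⟩
    have hvk : v ∈ (P.pi hD).ker := hv ▸ mul_mem (inv_mem he) he'
    have hvV : (v : G) ∈ Subgroup.closure ({d, a} : Set G) := by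
      rw [P.mem_V_iff_muP hD hvk, hv, map_mul, map_inv,
        muP_mul hF (inv_mem ((P.mem_ker_pi hD e).1 he)) ((P.mem_ker_pi hD e').1 he'),
        muP_inv hF ((P.mem_ker_pi hD e).1 he), h]
      exact funext fun i => add_self hF _
    rw [show e' = e * v by rw [hv, mul_inv_cancel_left]]
    simp only [Subgroup.coe_mul]
    rw [(P.V_central hD hvV e.2).symm.mul_mul_mul_comm, P.V_sq hD hvV, mul_one]
  have hmu : ∀ {e f : ↥P.K}, e ∈ (P.pi hD).ker → f ∈ (P.pi hD).ker →
      muP hF (P.phi (e * f)) = muP hF (P.phi e) + muP hF (P.phi f) := fun {e f} he hf => by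
    rw [map_mul, muP_mul hF ((P.mem_ker_pi hD e).1 he) ((P.mem_ker_pi hD f).1 hf)]
  have hadd : ∀ {m n}, Good m → Good n → Good (m + n) := by
    intro m n hm hn e he hem
    obtain ⟨p, hp, hpm⟩ := P.exists_ker_muP hD m
    obtain ⟨q, hq, hqn⟩ := P.exists_ker_muP hD n
    obtain ⟨c, hc, hpq⟩ := hprod hp hq
    rw [hdep he (mul_mem hp hq) (by rw [hem, hmu hp hq, hpm, hqn]), hpq]
    exact hmul (hmul (hm p hp hpm) (hn q hq hqn)) hc
  have hsingle : ∀ (i : Fin 4) (c : F), Good (Pi.single i c) := by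
    intro i c
    obtain ⟨l, hl0, hl1⟩ := exists_gen hF
    obtain ⟨h, hh⟩ := exists_diag hF (fun t => if t = i then l else if t = i + 1 then l ^ 2 else 1)
      (fun t => by split_ifs <;> simp [hl0]) (by
        fin_cases i <;> simp [Fin.prod_univ_four] <;> linear_combination cube hF hl0)
    obtain ⟨k, hk, -⟩ := P.exists_blk hD h
    have hnrm := MonoidHom.normal_ker (P.pi hD)
    obtain ⟨p, hp, hpm⟩ := P.exists_ker_muP hD (Pi.single i c)
    have hcj : ∀ q : ↥P.K, q ∈ (P.pi hD).ker → ∀ b : F, muP hF (P.phi q) = Pi.single i b →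
        muP hF (P.phi (k * q * k⁻¹)) = Pi.single i (l * b) ∧
          ((k * q * k⁻¹ * (k * q * k⁻¹) : ↥P.K) : G) = ((q * q : ↥P.K) : G) := by
      intro q hq b hqb
      refine ⟨?_, ?_⟩
      · rw [map_mul, map_mul, map_inv, hk, (muP_conj hF h ((P.mem_ker_pi hD q).1 hq)).2, hqb, hh,
          if_pos rfl]
      · have hc := P.V_central hD (P.ker_sq hD hq) k.2
        calc ((k * q * k⁻¹ * (k * q * k⁻¹) : ↥P.K) : G)
            = (k : G) * ((q * q : ↥P.K) : G) * (k : G)⁻¹ := by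
              simp only [Subgroup.coe_mul, Subgroup.coe_inv]; group
          _ = _ := by rw [hc.eq, mul_inv_cancel_right]
    obtain ⟨p1, s1⟩ := hcj p hp c hpm
    have hp1 := hnrm.conj_mem p hp k
    obtain ⟨p2, s2⟩ := hcj _ hp1 (l * c) p1
    have hp2 := hnrm.conj_mem _ hp1 k
    obtain ⟨w, hw, hpw⟩ := hprod hp hp1
    intro e he hem
    -- the element is the sum of its two translates
    have hsum : muP hF (P.phi (p * (k * p * k⁻¹))) =
        muP hF (P.phi (k * (k * p * k⁻¹) * k⁻¹)) := by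
      rw [hmu hp hp1, hpm, p1, p2, ← Pi.single_add]
      congr 1
      linear_combination -c * gen_rel hF hl0 hl1 + (c + l * c) * add_self hF (1 : F)
    have h1 := hdep (mul_mem hp hp1) hp2 hsum
    rw [hpw, s2, s1, P.V_sq hD (P.ker_sq hD hp), one_mul] at h1
    rw [hdep he hp (hem.trans hpm.symm), ← h1]
    exact hw
  obtain ⟨e, he, rfl⟩ := Subgroup.mem_map.1 hx
  have hm : muP hF (P.phi e) = ∑ i, Pi.single i (muP hF (P.phi e) i) :=
    (Finset.univ_sum_single _).symm
  refine (?_ : Good (muP hF (P.phi e))) e he rfl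
  rw [hm, Fin.sum_univ_four]
  exact hadd (hadd (hadd (hsingle _ _) (hsingle _ _)) (hsingle _ _)) (hsingle _ _)

/-- A complement to `d` in `E` containing the product. -/
theorem exists_complement : ∃ M : Subgroup G, M ≤ P.E hD ∧ d * a ∈ M ∧ d ∉ M ∧
    ∀ x ∈ P.E hD, x ∈ M ∨ d * x ∈ M := by
  have hd1 : d ≠ 1 := hD.ne_one P.hd
  have hdE : d ∈ P.E hD := P.V_le_E hD (Subgroup.subset_closure (by simp))
  have hdd := hD.sq P.hd
  have hdj : d ∉ Subgroup.zpowers (d * a) := by
    intro h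
    have hj2 : (d * a) ^ 2 = 1 := by
      rw [pow_two]; exact P.V_sq hD (mul_mem (Subgroup.subset_closure (by simp))
        (Subgroup.subset_closure (by simp)))
    obtain ⟨n, hn⟩ := Subgroup.mem_zpowers_iff.1 h
    rcases Int.even_or_odd' n with ⟨m, rfl | rfl⟩
    · rw [zpow_mul, zpow_two, ← pow_two, hj2, one_zpow] at hn
      exact hd1 hn.symm
    · rw [zpow_add, zpow_mul, zpow_two, ← pow_two, hj2, one_zpow, one_mul, zpow_one] at hn
      exact hD.ne_one P.ha.1 (mul_left_cancel (hn.trans (mul_one d).symm))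
  obtain ⟨M, ⟨hME, hjM, hdM⟩, hmax⟩ :=
    Set.Finite.exists_maximal (Set.toFinite {M : Subgroup G | M ≤ P.E hD ∧ d * a ∈ M ∧ d ∉ M})
      ⟨Subgroup.zpowers (d * a), Subgroup.zpowers_le.2 (P.j_mem_E hD),
        Subgroup.mem_zpowers _, hdj⟩
  have hJM : ∀ {g : G}, g = 1 ∨ g = d * a → g ∈ M := by
    rintro g (rfl | rfl)
    · exact one_mem _
    · exact hjM
  refine ⟨M, hME, hjM, hdM, fun x hx => or_iff_not_imp_left.2 fun hxM => ?_⟩
  -- the elements of `M` and of `x M` form a subgroup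
  have hcm : ∀ m ∈ M, x⁻¹ * m * x ∈ M := by
    intro m hm
    have hc := P.E_comm_j hD (inv_mem hx) (hME hm)
    have := mul_mem (hJM hc) hm
    simpa [mul_assoc] using this
  have hxx : x * x ∈ M := hJM (P.E_sq_j hD hx)
  let N : Subgroup G :=
    { carrier := {g | g ∈ M ∨ x⁻¹ * g ∈ M}
      one_mem' := Or.inl (one_mem _)
      mul_mem' := fun {g k} hg hk => by
        rcases hg with hg | hg <;> rcases hk with hk | hk
        · exact Or.inl (mul_mem hg hk)
        · refine Or.inr ?_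
          have := mul_mem (hcm g hg) hk
          simpa [mul_assoc] using this
        · refine Or.inr ?_
          have := mul_mem hg hk
          simpa [mul_assoc] using this
        · refine Or.inl ?_
          have := mul_mem (mul_mem hxx (hcm _ hg)) hk
          simpa [mul_assoc] using this
      inv_mem' := fun {g} hg => by
        rcases hg with hg | hg
        · exact Or.inl (inv_mem hg)
        · refine Or.inr ?_
          have := mul_mem (hcm _ (inv_mem hg)) (inv_mem hxx)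
          simpa [mul_assoc] using this }
  have hMN : M ≤ N := fun g hg => Or.inl hg
  have hdN : d ∈ N := by
    by_contra hdN
    refine hxM ((hmax (show N ∈ {M : Subgroup G | M ≤ P.E hD ∧ d * a ∈ M ∧ d ∉ M} from
      ⟨fun g hg => ?_, hMN hjM, hdN⟩) hMN) (Or.inr (by rw [inv_mul_cancel]; exact one_mem M)))
    rcases hg with hg | hg
    · exact hME hg
    · have := mul_mem hx (hME hg)
      rwa [mul_inv_cancel_left] at this
  rcases hdN with h | h
  · exact absurd h hdM
  · have h' : (x⁻¹ * d)⁻¹ ∈ M := inv_mem h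
    rwa [mul_inv_rev, inv_inv, H17.inv_self hD.cls.1 P.hd] at h'

/-- `E` is a group of order two times an extraspecial group. -/
theorem exists_extraspecial : ∃ (M : Type) (_ : Group M) (_ : Finite M), Cfsg.IsExtraspecial 2 M ∧
    Nat.card M = 2 ^ 9 ∧ Nonempty (↥(P.E hD) ≃* Multiplicative (ZMod 2) × M) := by
  obtain ⟨M, hME, hjM, hdM, hcover⟩ := P.exists_complement hD
  have hdd := hD.sq P.hd
  have hdE : d ∈ P.E hD := P.V_le_E hD (Subgroup.subset_closure (by simp))
  have hdc : ∀ g ∈ P.E hD, Commute d g := fun g hg => (P.mem_K_iff.1 (P.E_le_K hD hg)).1.symm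
  obtain ⟨ψ, hψ⟩ : ∃ ψ : Multiplicative (ZMod 2) →* ↥(P.E hD),
      (ψ 1 : G) = 1 ∧ (ψ (Multiplicative.ofAdd 1) : G) = d := by
    refine ⟨MonoidHom.mk' (fun e => if e = 1 then 1 else ⟨d, hdE⟩) ?_, by simp, ?_⟩
    · have h2 : ∀ e : Multiplicative (ZMod 2), e = 1 ∨ e = Multiplicative.ofAdd 1 := by decide
      have hne : Multiplicative.ofAdd (1 : ZMod 2) ≠ 1 := by decide
      have h11 : Multiplicative.ofAdd (1 : ZMod 2) * Multiplicative.ofAdd 1 = 1 := by decide
      intro e f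
      rcases h2 e with rfl | rfl <;> rcases h2 f with rfl | rfl
      · simp
      · simp
      · simp
      · rw [h11, if_pos rfl, if_neg hne]; exact Subtype.ext hdd.symm
    · have hne : Multiplicative.ofAdd (1 : ZMod 2) ≠ 1 := by decide
      simp [hne]
  have hcase : ∀ e : Multiplicative (ZMod 2), e = 1 ∨ e = Multiplicative.ofAdd 1 := by decide
  let φ : Multiplicative (ZMod 2) × ↥M →* ↥(P.E hD) :=
    MonoidHom.noncommCoprod ψ (Subgroup.inclusion hME) fun e m => Subtype.ext (by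
      rcases hcase e with rfl | rfl
      · show (ψ 1 : G) * (m : G) = (m : G) * (ψ 1 : G)
        rw [hψ.1, one_mul, mul_one]
      · show (ψ _ : G) * (m : G) = (m : G) * (ψ _ : G)
        rw [hψ.2]
        exact (hdc _ (hME m.2)).eq)
  have hφ : Function.Bijective φ := by
    refine ⟨(injective_iff_map_eq_one φ).2 ?_, fun g => ?_⟩
    · rintro ⟨e, m⟩ h
      have h' : (ψ e : G) * (m : G) = 1 := congrArg Subtype.val h
      rcases hcase e with rfl | rfl
      · rw [hψ.1, one_mul] at h'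
        exact Prod.ext rfl (Subtype.ext h')
      · rw [hψ.2] at h'
        refine absurd ?_ hdM
        rw [eq_inv_of_mul_eq_one_left h']
        exact inv_mem m.2
    · rcases hcover g g.2 with h | h
      · refine ⟨(1, ⟨g, h⟩), Subtype.ext ?_⟩
        show (ψ 1 : G) * (g : G) = g
        rw [hψ.1, one_mul]
      · refine ⟨(Multiplicative.ofAdd 1, ⟨d * g, h⟩), Subtype.ext ?_⟩
        show (ψ _ : G) * (d * (g : G)) = g
        rw [hψ.2, ← mul_assoc, hdd, one_mul]
  have hcardM : Nat.card ↥M = 2 ^ 9 := by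
    have h := Nat.card_congr (Equiv.ofBijective φ hφ)
    rw [Nat.card_prod, P.card_E hD, Nat.card_congr Multiplicative.toAdd, Nat.card_zmod] at h
    omega
  haveI : Fact (Nat.Prime 2) := ⟨Nat.prime_two⟩
  have hzmem : ∀ x : ↥M, ((x : G) = 1 ∨ (x : G) = d * a) → x ∈ Subgroup.center ↥M := by
    intro x hx
    refine Subgroup.mem_center_iff.2 fun y => Subtype.ext ?_
    show (y : G) * x = x * y
    have hyK := P.E_le_K hD (hME y.2)
    rcases hx with h | h <;> rw [h]
    · rw [mul_one, one_mul]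
    · exact (P.V_central hD (mul_mem (Subgroup.subset_closure (by simp))
        (Subgroup.subset_closure (by simp))) hyK).eq
  have hzc : ∀ x : ↥M, x ∈ Subgroup.center ↥M ↔ ((x : G) = 1 ∨ (x : G) = d * a) := by
    refine fun x => ⟨fun hx => ?_, hzmem x⟩
    have hxE := hME x.2
    have hall : ∀ e ∈ (P.pi hD).ker, Commute (⟨x, P.E_le_K hD hxE⟩ : ↥P.K) e := by
      intro e he
      refine commute_coe.1 ?_
      rcases hcover e (Subgroup.mem_map_of_mem _ he) with h | h
      · exact (congrArg Subtype.val (Subgroup.mem_center_iff.1 hx ⟨e, h⟩)).symm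
      · have h1 : Commute (x : G) (d * (e : G)) :=
          (congrArg Subtype.val (Subgroup.mem_center_iff.1 hx ⟨_, h⟩)).symm
        have h2 := ((hdc _ hxE).symm).mul_right h1
        rwa [← mul_assoc, hdd, one_mul] at h2
    have hxk : (⟨x, P.E_le_K hD hxE⟩ : ↥P.K) ∈ (P.pi hD).ker := by
      obtain ⟨e, he, heq⟩ := Subgroup.mem_map.1 hxE
      rwa [show (⟨x, P.E_le_K hD hxE⟩ : ↥P.K) = e from Subtype.ext heq.symm]
    rcases (P.mem_V_iff hD).1 (P.mem_V_of_commute hD hxk hall) with h | h | h | h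
    · exact Or.inl h
    · exact absurd (h ▸ x.2) hdM
    · refine absurd ?_ hdM
      have h' : (d * a) * a ∈ M := mul_mem hjM (h ▸ x.2)
      rwa [mul_assoc, hD.sq P.ha.1, mul_one] at h'
    · exact Or.inr h
  have hcardZ : Nat.card (Subgroup.center ↥M) = 2 := by
    have hj1 : d * a ≠ 1 := fun h => P.ha.2.1
      ((eq_inv_of_mul_eq_one_right h).trans (H17.inv_self hD.cls.1 P.hd))
    refine Nat.card_eq_two_iff.2 ⟨⟨1, one_mem _⟩, ⟨⟨d * a, hjM⟩, hzmem _ (Or.inr rfl)⟩, ?_, ?_⟩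
    · exact fun h => hj1 (congrArg (fun x : Subgroup.center ↥M => (x.1 : G)) h).symm
    · refine Set.eq_univ_of_forall fun x => ?_
      rcases (hzc x.1).1 x.2 with h | h
      · exact Or.inl (Subtype.ext (Subtype.ext h))
      · exact Or.inr (Subtype.ext (Subtype.ext h))
  have hp : IsPGroup 2 ↥M := IsPGroup.of_card hcardM
  have hnab : Subgroup.center ↥M ≠ ⊤ := fun h => by
    have := hcardZ
    rw [h, Subgroup.card_top, hcardM] at this
    norm_num at this
  have hex : Cfsg.IsExtraspecial 2 ↥M :=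
    H24.isExtraspecial_of hp hcardZ hnab
      (fun u v => (hzc _).2 (by
        have := P.E_comm_j hD (hME u.2) (hME v.2)
        simpa [commutatorElement_def] using this))
      (fun u => (hzc _).2 (by
        have := P.E_sq_j hD (hME u.2)
        simpa [pow_two] using this))
  let sh : ↥M ≃* Shrink.{0} ↥M := Shrink.mulEquiv.symm
  exact ⟨Shrink.{0} ↥M, inferInstance, inferInstance, H58.isExtraspecial_congr sh hex,
    by rw [← Nat.card_congr sh.toEquiv, hcardM],
    ⟨(MulEquiv.ofBijective φ hφ).symm.trans (MulEquiv.prodCongr (MulEquiv.refl _) sh)⟩⟩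

end Frame

end Cfsg.Agent.H97.M22
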