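import Cfsg.Agent.H97.M22.Pair
import Cfsg.Agent.H97.M22.PointAction

/-!
No element interchanging two commuting members centralises the unitary group of their centraliser.
-/

set_option autoImplicit false
set_option linter.unusedSectionVars false

namespace Cfsg.Agent.H97.M22

open Cfsg Cfsg.Agent.H17.UPoints Cfsg.Agent.H43.FischerTwins

variable {G : Type*} [Group G] {F : Type} [Field F] [Fintype F] [DecidableEq F]

theorem commute_three {α M : Type*} [Mul M] {P : α → M} {g : M} {x y z p q r : α}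
    (hx : P x = P p ∨ P x = P q ∨ P x = P r) (hy : P y = P p ∨ P y = P q ∨ P y = P r)
    (hz : P z = P p ∨ P z = P q ∨ P z = P r) (nxy : P x ≠ P y) (nxz : P x ≠ P z) (nyz : P y ≠ P z)
    (gx : Commute g (P x)) (gy : Commute g (P y)) (gz : Commute g (P z)) :
    Commute g (P p) ∧ Commute g (P q) ∧ Commute g (P r) := by
  rcases hx with h | h | h <;> rcases hy with h' | h' | h' <;> rcases hz with h'' | h'' | h'' <;>
    rw [h] at nxy nxz gx <;> rw [h'] at nxy nyz gy <;> rw [h''] at nxz nyz gz <;>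
    first
      | exact absurd rfl nxy
      | exact absurd rfl nxz
      | exact absurd rfl nyz
      | exact ⟨gx, gy, gz⟩
      | exact ⟨gx, gz, gy⟩
      | exact ⟨gy, gx, gz⟩
      | exact ⟨gy, gz, gx⟩
      | exact ⟨gz, gx, gy⟩
      | exact ⟨gz, gy, gx⟩

namespace Frame

variable {D : Set G} {d a : G} {hF : Fintype.card F = 4} (P : Frame D d a hF) (hD : Data D hF)
include P hD

theorem conj_mem_K {s : G} (hsd : s * d * s⁻¹ = a) (hsa : s * a * s⁻¹ = d) (x : ↥P.K) :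
    s * x * s⁻¹ ∈ P.K := by
  obtain ⟨h1, h2⟩ := P.mem_K_iff.1 x.2
  refine P.mem_K_iff.2 ⟨?_, ?_⟩
  · have := (H17.commute_conj s).2 h2
    rwa [hsa] at this
  · have := (H17.commute_conj s).2 h1
    rwa [hsd] at this

/-- The members other than `a` on the standard line. -/
theorem exists_point_lp (c : F) : ∃ x : ↥P.K, (x : G) ∈ Sset D d ∧ (x : G) ∈ Sset D a ∧
    P.phi x = timg hF (lp c) ∧ P.pi hD x = trv hF wz := by
  have hmem := timg_mem_map_of_perp hF (lp_iso hF c) (lp_perp hF c)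
  obtain ⟨y, hy, ey⟩ := P.N.onto (lp c) (lp_ne c) (lp_iso hF c)
  obtain ⟨x, hx⟩ := P.exists_phi hD hmem
  have hya : Commute (y : G) a := (P.N.commute_partner_iff hD.conj y ⟨a, sset_mem_cent P.ha⟩ P.ha).2
    (by rw [ey, P.hNa]
        exact (timg_commute_iff hF (lp_iso hF c) (vv_iso hF) (lp_ne c) vv_ne).2 (lp_perp hF c))
  have hyK : (y : G) ∈ P.K :=
    P.mem_K_iff.2 ⟨Subgroup.mem_centralizer_singleton_iff.1 y.2, hya⟩
  have hphi : P.phi ⟨y, hyK⟩ = timg hF (lp c) := ey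
  refine ⟨⟨y, hyK⟩, hy, ⟨hy.1, fun h => ?_, hya.symm⟩, hphi, ?_⟩
  · have h' : P.phi ⟨y, hyK⟩ = P.phi ⟨a, P.a_mem hD⟩ := congrArg P.phi (Subtype.ext h)
    rw [hphi, P.phi_a hD] at h'
    obtain ⟨k, -, hk⟩ := timg_eq hF (lp_iso hF c) (vv_iso hF) (lp_ne c) h'
    rw [lp, vv, smul_pt, smul_zero] at hk
    exact wz_ne (pt_inj hk).2.2
  · show piP hF ⟨P.phi ⟨y, hyK⟩, _⟩ = _
    simp only [hphi, lp]
    exact piP_timg hF (wz_iso hF) _

theorem no_swap {s : G} (hsd : s * d * s⁻¹ = a) (hsa : s * a * s⁻¹ = d)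
    (hs : ∀ x : ↥P.K, P.pi hD ⟨s * x * s⁻¹, P.conj_mem_K hD hsd hsa x⟩ = P.pi hD x) : False := by
  choose X hXd hXa hXphi hXpi using P.exists_point_lp hD
  have hXinj : ∀ c c' : F, (X c : G) = (X c' : G) → c = c' := fun c c' h =>
    lp_timg_inj hF (by rw [← hXphi c, ← hXphi c', show X c = X c' from Subtype.ext h])
  -- the line is preserved
  have hline : ∀ s : G, ∀ hsd : s * d * s⁻¹ = a, ∀ hsa : s * a * s⁻¹ = d,
      (∀ x : ↥P.K, P.pi hD ⟨s * x * s⁻¹, P.conj_mem_K hD hsd hsa x⟩ = P.pi hD x) →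
      ∀ c, ∃ c', s * (X c : G) * s⁻¹ = (X c' : G) := by
    intro s hsd hsa hs c
    have hmem : s * (X c : G) * s⁻¹ ∈ Sset D d := by
      have h := (sset_conj hD.conj s).2 (hXa c)
      rwa [hsa] at h
    obtain ⟨y, hyd⟩ : ∃ y : ↥P.K, y = ⟨_, P.conj_mem_K hD hsd hsa (X c)⟩ := ⟨_, rfl⟩
    have hyS : (y : G) ∈ Sset D d := by rw [hyd]; exact hmem
    obtain ⟨u, hu0, hu, eu⟩ := P.N.img ⟨y, P.K_le y.2⟩ hyS
    have eu' : P.phi y = timg hF u := eu
    have huv : herm u vv = 0 := (timg_commute_iff hF hu (vv_iso hF) hu0 vv_ne).1 (by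
      rw [← eu', ← P.phi_a hD]
      exact (commute_coe.1 (show Commute ((y : ↥P.K) : G) ((⟨a, P.a_mem hD⟩ : ↥P.K) : G) from
        (P.mem_K_iff.1 y.2).2)).map P.phi)
    have hp : P.pi hD y = trv hF wz := by rw [hyd, hs, hXpi]
    have hp' : piP hF ⟨timg hF u, timg_mem_map_of_perp hF hu huv⟩ = trv hF wz := by
      rw [← hp]
      show _ = piP hF ⟨P.phi y, _⟩
      simp only [eu']
    obtain ⟨c', hc'⟩ := exists_lp_of_pi hF hu hu0 huv _ hp'
    refine ⟨c', ?_⟩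
    have h' := P.N.inj ⟨y, P.K_le y.2⟩ ⟨X c', P.K_le (X c').2⟩ hyS (hXd c')
      (eu'.trans (hc'.trans (hXphi c').symm))
    have h'' : (y : G) = (X c' : G) := congrArg (fun t : ↥(Subgroup.centralizer ({d} : Set G)) =>
      (t : G)) h'
    rw [hyd] at h''
    exact h''
  -- translations
  have hkerX : ∀ e : ↥P.K, e ∈ (P.pi hD).ker → ∀ c,
      (e : G) * (X c : G) * (e : G)⁻¹ = (X (c + herm wz (muP hF (P.phi e))) : G) := by
    intro e he c
    have hS : (e : G) * (X c : G) * (e : G)⁻¹ ∈ Sset D d := by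
      have h := (sset_conj hD.conj (e : G)).2 (hXd c)
      rwa [(P.mem_K_iff.1 e.2).1.eq, mul_inv_cancel_right] at h
    refine congrArg (fun t : ↥(Subgroup.centralizer ({d} : Set G)) => (t : G))
      (P.N.inj ⟨_, P.K_le (e * X c * e⁻¹).2⟩ ⟨_, P.K_le (X (c + herm wz (muP hF (P.phi e)))).2⟩ hS
        (hXd _) ?_)
    show P.phi (e * X c * e⁻¹) = P.phi (X _)
    rw [map_mul, map_mul, map_inv, hXphi, hXphi, lp,
      radP_conj_timg hF ((P.mem_ker_pi hD e).1 he) c wz (wz_iso hF)]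
    rfl
  -- scalings
  have hscale : ∀ r : F, r ≠ 0 → ∃ k : ↥P.K,
      ∀ c, (k : G) * (X c : G) * (k : G)⁻¹ = (X (r ^ 2 * c) : G) := by
    intro r hr
    obtain ⟨h, hh⟩ := exists_scale hF hr
    obtain ⟨k, hk, -⟩ := P.exists_blk hD h
    refine ⟨k, fun c => ?_⟩
    have hS : (k : G) * (X c : G) * (k : G)⁻¹ ∈ Sset D d := by
      have h' := (sset_conj hD.conj (k : G)).2 (hXd c)
      rwa [(P.mem_K_iff.1 k.2).1.eq, mul_inv_cancel_right] at h'
    refine congrArg (fun t : ↥(Subgroup.centralizer ({d} : Set G)) => (t : G))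
      (P.N.inj ⟨_, P.K_le (k * X c * k⁻¹).2⟩ ⟨_, P.K_le (X (r ^ 2 * c)).2⟩ hS (hXd _) ?_)
    show P.phi (k * X c * k⁻¹) = P.phi (X _)
    rw [map_mul, map_mul, map_inv, hk, hXphi, hXphi, blk_scale hF hr hh]
  -- normalise: fix the point with parameter zero
  obtain ⟨t, htd, hta, ht, ht0⟩ : ∃ t : G, ∃ htd : t * d * t⁻¹ = a, ∃ hta : t * a * t⁻¹ = d,
      (∀ x : ↥P.K, P.pi hD ⟨t * x * t⁻¹, P.conj_mem_K hD htd hta x⟩ = P.pi hD x) ∧
        t * (X 0 : G) * t⁻¹ = (X 0 : G) := by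
    obtain ⟨c₀, hc₀⟩ := hline s hsd hsa hs 0
    obtain ⟨z, hz⟩ := exists_one hF (wz_ne (F := F))
    obtain ⟨e, he, hem⟩ := P.exists_ker_muP hD (c₀ ^ 2 • z)
    have hwz : herm wz (muP hF (P.phi e)) = c₀ := by
      rw [hem, herm_smul_right hF, ← pow_mul, pow_four hF, ← herm_conj hF, hz, one_pow, mul_one]
    have hea := (P.mem_K_iff.1 e.2).2
    have hed := (P.mem_K_iff.1 e.2).1
    have hd' : (e : G) * s * d * ((e : G) * s)⁻¹ = a := by
      calc (e : G) * s * d * ((e : G) * s)⁻¹ = (e : G) * (s * d * s⁻¹) * (e : G)⁻¹ := by group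
        _ = a := by rw [hsd, hea.eq, mul_inv_cancel_right]
    have ha' : (e : G) * s * a * ((e : G) * s)⁻¹ = d := by
      calc (e : G) * s * a * ((e : G) * s)⁻¹ = (e : G) * (s * a * s⁻¹) * (e : G)⁻¹ := by group
        _ = d := by rw [hsa, hed.eq, mul_inv_cancel_right]
    refine ⟨(e : G) * s, hd', ha', fun x => ?_, ?_⟩
    · rw [show (⟨(e : G) * s * x * ((e : G) * s)⁻¹, P.conj_mem_K hD hd' ha' x⟩ : ↥P.K) =
        e * ⟨s * x * s⁻¹, P.conj_mem_K hD hsd hsa x⟩ * e⁻¹ from Subtype.ext (by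
          simp only [Subgroup.coe_mul, Subgroup.coe_inv]; group), map_mul, map_mul, map_inv,
        MonoidHom.mem_ker.1 he, hs x, inv_one, one_mul, mul_one]
    · calc (e : G) * s * (X 0 : G) * ((e : G) * s)⁻¹
          = (e : G) * (s * (X 0 : G) * s⁻¹) * (e : G)⁻¹ := by group
        _ = (X (c₀ + herm wz (muP hF (P.phi e))) : G) := by rw [hc₀, hkerX e he c₀]
        _ = (X 0 : G) := by rw [hwz, add_self hF]
  obtain ⟨μ, hμ⟩ := hline t htd hta ht 1
  have hμ0 : μ ≠ 0 := fun h => by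
    rw [h, ← ht0] at hμ
    exact one_ne_zero (hXinj 1 0 (mul_left_cancel (mul_right_cancel hμ)))
  -- the element acts as a scaling
  have hall : ∀ c, t * (X c : G) * t⁻¹ = (X (μ * c) : G) := by
    intro c
    rcases eq_or_ne c 0 with rfl | hc
    · rw [mul_zero]; exact ht0
    · obtain ⟨k, hk⟩ := hscale (c ^ 2) (pow_ne_zero _ hc)
      have hk1 : ∀ p, (k : G) * (X p : G) * (k : G)⁻¹ = (X (c * p) : G) := fun p => by
        rw [hk p, ← pow_mul, pow_four hF]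
      obtain ⟨k', hk'd⟩ : ∃ k' : ↥P.K, k' = ⟨t * k * t⁻¹, P.conj_mem_K hD htd hta k⟩ := ⟨_, rfl⟩
      have hk'G : (k' : G) = t * k * t⁻¹ := by rw [hk'd]
      have hek : k' * k⁻¹ ∈ (P.pi hD).ker := by
        rw [MonoidHom.mem_ker, map_mul, map_inv, hk'd, ht, mul_inv_cancel]
      have hflip : ∀ g p : G, g * p * g⁻¹ = p → g⁻¹ * p * g = p := by
        intro g p h
        conv_lhs => arg 1; arg 2; rw [← h]
        group
      have hk0 : (k : G) * (X 0 : G) * (k : G)⁻¹ = (X 0 : G) := by rw [hk1, mul_zero]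
      have he0 : ((k' * k⁻¹ : ↥P.K) : G) * (X 0 : G) * ((k' * k⁻¹ : ↥P.K) : G)⁻¹ = (X 0 : G) := by
        simp only [Subgroup.coe_mul, Subgroup.coe_inv, hk'G]
        calc t * (k : G) * t⁻¹ * (k : G)⁻¹ * (X 0 : G) * (t * (k : G) * t⁻¹ * (k : G)⁻¹)⁻¹
            = t * ((k : G) * (t⁻¹ * ((k : G)⁻¹ * (X 0 : G) * (k : G)) * t) * (k : G)⁻¹) * t⁻¹ := by
              group
          _ = (X 0 : G) := by rw [hflip _ _ hk0, hflip _ _ ht0, hk0, ht0]
      have hw0 : herm wz (muP hF (P.phi (k' * k⁻¹))) = 0 := by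
        have := hXinj _ _ (((hkerX _ hek 0).symm.trans he0))
        simpa using this
      have hfix := hkerX _ hek (c * μ)
      rw [hw0, add_zero, ← hk1 μ] at hfix
      calc t * (X c : G) * t⁻¹ = t * ((k : G) * (X 1 : G) * (k : G)⁻¹) * t⁻¹ := by
            rw [hk1, mul_one]
        _ = (k' : G) * (t * (X 1 : G) * t⁻¹) * (k' : G)⁻¹ := by rw [hk'G]; group
        _ = ((k' * k⁻¹ : ↥P.K) : G) * ((k : G) * (X μ : G) * (k : G)⁻¹) *
            ((k' * k⁻¹ : ↥P.K) : G)⁻¹ := by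
            rw [hμ]; simp only [Subgroup.coe_mul, Subgroup.coe_inv]; group
        _ = (X (μ * c) : G) := by rw [hfix, hk1, mul_comm]
  -- an element fixing the four points and exchanging the two members
  obtain ⟨τ, hτd, hτX⟩ : ∃ τ : G, τ * d * τ⁻¹ = a ∧ ∀ c, τ * (X c : G) * τ⁻¹ = (X c : G) := by
    obtain ⟨k, hk⟩ := hscale μ hμ0
    refine ⟨(k : G) * t, ?_, fun c => ?_⟩
    · calc (k : G) * t * d * ((k : G) * t)⁻¹ = (k : G) * (t * d * t⁻¹) * (k : G)⁻¹ := by group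
        _ = a := by rw [htd, (P.mem_K_iff.1 k.2).2.eq, mul_inv_cancel_right]
    · calc (k : G) * t * (X c : G) * ((k : G) * t)⁻¹
          = (k : G) * (t * (X c : G) * t⁻¹) * (k : G)⁻¹ := by group
        _ = (X c : G) := by
          rw [hall, hk, ← mul_assoc, show μ ^ 2 * μ = 1 by rw [pow_two]; exact cube hF hμ0, one_mul]
  obtain ⟨l, hl0, hl1⟩ := exists_gen hF
  obtain ⟨b, hbd⟩ : ∃ b, b = (X 0 : G) := ⟨_, rfl⟩
  have hb : b ∈ D := hbd ▸ (hXd 0).1
  have comX : ∀ p q : F, Commute (X p : G) (X q : G) := fun p q =>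
    P.N.comm ⟨X p, P.K_le (X p).2⟩ ⟨X q, P.K_le (X q).2⟩ (hXd p) (hXd q) (by
      show Commute (P.phi (X p)) (P.phi (X q))
      rw [hXphi, hXphi]
      exact (timg_commute_iff hF (lp_iso hF p) (lp_iso hF q) (lp_ne p) (lp_ne q)).2 (lp_lp hF p q))
  have hl2 : l ^ 2 ≠ 1 := fun h => hl1 (by
    calc l = (l ^ 2) ^ 2 := by rw [← pow_mul, pow_four hF]
      _ = 1 := by rw [h, one_pow])
  have hl2' : l ^ 2 ≠ l := fun h => hl1 (mul_left_cancel₀ hl0 (by rw [← pow_two, h, mul_one]))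
  have hdb : d ∈ Sset D b := hbd ▸ ⟨P.hd, (hXd 0).2.1.symm, (hXd 0).2.2.symm⟩
  have hab : a ∈ Sset D b := hbd ▸ ⟨P.ha.1, (hXa 0).2.1.symm, (hXa 0).2.2.symm⟩
  have hXb : ∀ c : F, c ≠ 0 → (X c : G) ∈ Sset D b := fun c hc => by
    rw [hbd]
    exact ⟨(hXd c).1, fun h => hc (hXinj c 0 h), comX 0 c⟩
  have hda : d ≠ a := P.ha.2.1.symm
  -- the product relation
  have hε : a * (X 0 : G) * (X 1 : G) * (X l : G) * (X (l ^ 2) : G) = 1 ∨
      a * (X 0 : G) * (X 1 : G) * (X l : G) * (X (l ^ 2) : G) = d := by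
    refine (P.phi_eq_one_iff hD (⟨a, P.a_mem hD⟩ * X 0 * X 1 * X l * X (l ^ 2))).1 ?_
    rw [map_mul, map_mul, map_mul, map_mul, P.phi_a hD, hXphi, hXphi, hXphi, hXphi]
    exact five_prod hF hl0 hl1
  rw [← hbd] at hε
  obtain ⟨M⟩ := hD.models b hb
  have hbb : b ∈ Subgroup.centralizer ({b} : Set G) := Subgroup.mem_centralizer_singleton_iff.2 rfl
  have hsqa := hD.sq P.ha.1
  have hsqd := hD.sq P.hd
  rcases hε with hε | hε
  · -- the product cannot be trivial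
    obtain ⟨N, hN1, hN2⟩ := M.exists_pair (hXb 1 one_ne_zero) (hXb l hl0)
      (fun h => hl1 (hXinj 1 l h).symm) (comX 1 l)
    obtain ⟨w, hw0, hw, ew⟩ := N.img ⟨a, sset_mem_cent hab⟩ hab
    obtain ⟨w', hw0', hw', ew'⟩ :=
      N.img ⟨(X (l ^ 2) : G), sset_mem_cent (hXb _ (pow_ne_zero _ hl0))⟩ (hXb _ (pow_ne_zero _ hl0))
    have heq : (⟨(X 1 : G), sset_mem_cent (hXb 1 one_ne_zero)⟩ : ↥(Subgroup.centralizer ({b} : Set G))) *
        ⟨(X l : G), sset_mem_cent (hXb l hl0)⟩ =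
        ⟨b, hbb⟩ * (⟨a, sset_mem_cent hab⟩ *
          ⟨(X (l ^ 2) : G), sset_mem_cent (hXb _ (pow_ne_zero _ hl0))⟩) := by
      refine Subtype.ext ?_
      show (X 1 : G) * (X l : G) = b * (a * (X (l ^ 2) : G))
      have hbi : b⁻¹ = b := H17.inv_self hD.cls.1 hb
      have h := eq_inv_mul_of_mul_eq (show (a * b) * ((X 1 : G) * (X l : G) * (X (l ^ 2) : G)) = 1 by
        rw [← hε]; simp only [mul_assoc])
      rw [mul_one, mul_inv_rev, hbi, inv_eq_of_mul_eq_one_right hsqa] at h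
      calc (X 1 : G) * (X l : G)
          = (X 1 : G) * (X l : G) * (X (l ^ 2) : G) * (X (l ^ 2) : G) := by
            rw [mul_assoc _ (X (l ^ 2) : G) (X (l ^ 2) : G), hD.sq (hXd (l ^ 2)).1, mul_one]
        _ = b * (a * (X (l ^ 2) : G)) := by rw [h, mul_assoc]
    have h2 := congrArg N.φ heq
    rw [map_mul, map_mul, map_mul, hN1, hN2, ew, ew',
      (N.ker ⟨b, hbb⟩).2 (Or.inr rfl), one_mul] at h2
    have hcm : Commute (timg hF w) (timg hF w') := by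
      rw [← ew, ← ew']
      exact (N.commute_partner_iff hD.conj ⟨a, _⟩ ⟨_, _⟩ (hXb _ (pow_ne_zero _ hl0))).1
        (hXa (l ^ 2)).2.2
    have hne : timg hF w ≠ timg hF w' := fun h => by
      have := congrArg Subtype.val (N.inj ⟨a, _⟩ ⟨_, _⟩ hab (hXb _ (pow_ne_zero _ hl0))
        ((ew.trans h).trans ew'.symm))
      exact (hXa (l ^ 2)).2.1 this.symm
    rcases line_two hF hw hw' hw0 hw0' ((timg_commute_iff hF hw hw' hw0 hw0').1 hcm) hne h2.symm
      with ⟨h, -⟩ | ⟨h, -⟩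
    · have := congrArg Subtype.val (N.inj ⟨a, sset_mem_cent hab⟩ ⟨_, sset_mem_cent (hXb 1 one_ne_zero)⟩
        hab (hXb 1 one_ne_zero) ((ew.trans h).trans hN1.symm))
      exact (hXa 1).2.1 this.symm
    · have := congrArg Subtype.val (N.inj ⟨a, sset_mem_cent hab⟩ ⟨_, sset_mem_cent (hXb l hl0)⟩
        hab (hXb l hl0) ((ew.trans h).trans hN2.symm))
      exact (hXa l).2.1 this.symm
  · obtain ⟨N, hN1, hN2⟩ := M.exists_pair hdb hab hda P.ha.2.2
    have hτb : τ ∈ Subgroup.centralizer ({b} : Set G) :=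
      Subgroup.mem_centralizer_singleton_iff.2 (mul_inv_eq_iff_eq_mul.1 (hbd ▸ hτX 0))
    have hpt : ∀ c : F, c ≠ 0 → ∃ v, v ≠ 0 ∧ herm v v = 0 ∧
        (∀ hc : (X c : G) ∈ Subgroup.centralizer ({b} : Set G), N.φ ⟨X c, hc⟩ = timg hF v) := by
      intro c hc
      obtain ⟨v, hv0, hv, e⟩ := N.img ⟨_, sset_mem_cent (hXb c hc)⟩ (hXb c hc)
      exact ⟨v, hv0, hv, fun _ => e⟩
    obtain ⟨x, hx0, hx, ex⟩ := hpt 1 one_ne_zero
    obtain ⟨y, hy0, hy, ey⟩ := hpt l hl0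
    obtain ⟨z, hz0, hz, ez⟩ := hpt (l ^ 2) (pow_ne_zero _ hl0)
    have mX := sset_mem_cent (hXb 1 one_ne_zero)
    have mY := sset_mem_cent (hXb l hl0)
    have mZ := sset_mem_cent (hXb (l ^ 2) (pow_ne_zero _ hl0))
    have heq : (⟨(X 1 : G), mX⟩ : ↥(Subgroup.centralizer ({b} : Set G))) * ⟨(X l : G), mY⟩ *
        ⟨(X (l ^ 2) : G), mZ⟩ = ⟨b, hbb⟩ * (⟨a, sset_mem_cent hab⟩ * ⟨d, sset_mem_cent hdb⟩) := by
      refine Subtype.ext ?_
      show (X 1 : G) * (X l : G) * (X (l ^ 2) : G) = b * (a * d)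
      have h := eq_inv_mul_of_mul_eq (Eq.trans (show (a * b) * ((X 1 : G) * (X l : G) *
          (X (l ^ 2) : G)) = a * b * (X 1 : G) * (X l : G) * (X (l ^ 2) : G) by
        simp only [mul_assoc]) hε)
      rw [h, mul_inv_rev, H17.inv_self hD.cls.1 hb, inv_eq_of_mul_eq_one_right hsqa, mul_assoc]
    have h2 := congrArg N.φ heq
    rw [map_mul, map_mul, map_mul, map_mul, ex, ey, ez, hN1, hN2,
      (N.ker ⟨b, hbb⟩).2 (Or.inr rfl), one_mul,
      ((timg_commute_iff hF (lp_iso hF 0) (vv_iso hF) (lp_ne 0) vv_ne).2 (lp_perp hF 0)).eq] at h2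
    have hcm : ∀ {p q : F} {u v : Fin 6 → F}, p ≠ 0 → q ≠ 0 → u ≠ 0 → v ≠ 0 → herm u u = 0 →
        herm v v = 0 →
        (∀ hc : (X p : G) ∈ Subgroup.centralizer ({b} : Set G), N.φ ⟨X p, hc⟩ = timg hF u) →
        (∀ hc : (X q : G) ∈ Subgroup.centralizer ({b} : Set G), N.φ ⟨X q, hc⟩ = timg hF v) →
        herm u v = 0 ∧ (p ≠ q → timg hF u ≠ timg hF v) := by
      intro p q u v hp hq hu0 hv0 hu hv eu ev
      refine ⟨(timg_commute_iff hF hu hv hu0 hv0).1 ?_, fun hpq h => hpq (hXinj p q ?_)⟩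
      · rw [← eu (sset_mem_cent (hXb p hp)), ← ev (sset_mem_cent (hXb q hq))]
        exact (N.commute_partner_iff hD.conj ⟨_, _⟩ ⟨_, _⟩ (hXb q hq)).1 (comX p q)
      · exact congrArg (fun t : ↥(Subgroup.centralizer ({b} : Set G)) => (t : G))
          (N.inj ⟨_, sset_mem_cent (hXb p hp)⟩ ⟨_, sset_mem_cent (hXb q hq)⟩
          (hXb p hp) (hXb q hq) (((eu _).trans h).trans (ev _).symm))
    have l1 : (1 : F) ≠ 0 := one_ne_zero
    have l2 : l ^ 2 ≠ 0 := pow_ne_zero _ hl0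
    obtain ⟨oxy, dxy⟩ := hcm l1 hl0 hx0 hy0 hx hy ex ey
    obtain ⟨oxz, dxz⟩ := hcm l1 l2 hx0 hz0 hx hz ex ez
    obtain ⟨oyz, dyz⟩ := hcm hl0 l2 hy0 hz0 hy hz ey ez
    have nxy := dxy (Ne.symm hl1)
    have nxz := dxz (Ne.symm hl2)
    have nyz := dyz (Ne.symm hl2')
    have cxy := (timg_commute_iff hF hx hy hx0 hy0).2 oxy
    have cyz := (timg_commute_iff hF hy hz hy0 hz0).2 oyz
    have cxz := (timg_commute_iff hF hx hz hx0 hz0).2 oxz
    have hyx : timg hF y * timg hF x * timg hF z = timg hF vv * timg hF (lp 0) := by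
      rw [← cxy.eq]; exact h2
    have hzx : timg hF z * timg hF x * timg hF y = timg hF vv * timg hF (lp 0) := by
      rw [(cxz.symm).eq, mul_assoc, cyz.symm.eq, ← mul_assoc]; exact h2
    have r1 := line_three hF hl0 hl1 hx hy hz hx0 hy0 hz0 oxy oxz oyz nxy nxz nyz h2
    have r2 := line_three hF hl0 hl1 hy hx hz hy0 hx0 hz0 ((herm_zero_comm hF).1 oxy) oyz oxz
      nxy.symm nyz nxz hyx
    have r3 := line_three hF hl0 hl1 hz hx hy hz0 hx0 hy0 ((herm_zero_comm hF).1 oxz)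
      ((herm_zero_comm hF).1 oyz) oxy nxz.symm nyz.symm nxy hzx
    obtain ⟨g, hg⟩ := mkP_surjective (N.φ ⟨τ, hτb⟩)
    have gfix : ∀ c, c ≠ 0 → ∀ u, (∀ hc : (X c : G) ∈ Subgroup.centralizer ({b} : Set G),
        N.φ ⟨X c, hc⟩ = timg hF u) → Commute (mkP g) (timg hF u) := fun c hc u eu => by
      rw [hg, ← eu (sset_mem_cent (hXb c hc))]
      exact (N.commute_partner_iff hD.conj ⟨τ, hτb⟩ ⟨_, _⟩ (hXb c hc)).1
        (mul_inv_eq_iff_eq_mul.1 (hτX c))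
    obtain ⟨g1, g2, g3⟩ := commute_three (P := timg hF) r1 r2 r3 nxy nxz nyz
      (gfix 1 l1 x ex) (gfix l hl0 y ey) (gfix (l ^ 2) l2 z ez)
    have hfix := (fix_three hF hl0 hl1 g1 g2 g3).1
    rw [hg, ← hN1] at hfix
    have hτd' : Commute τ d := (N.commute_partner_iff hD.conj ⟨τ, hτb⟩ ⟨d, _⟩ hdb).2 hfix
    rw [hτd'.eq, mul_inv_cancel_right] at hτd
    exact hda hτd

end Frame

end Cfsg.Agent.H97.M22
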