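import Cfsg.Agent.H97.M22.Basic
import Cfsg.Agent.H97.M22.PSUPi

/-!
The centraliser of two commuting members in a group of type M(22).
-/

set_option autoImplicit false
set_option linter.unusedSectionVars false

namespace Cfsg.Agent.H97.M22

open Cfsg Cfsg.Agent.H17.UPoints Cfsg.Agent.H43.FischerTwins

variable {G : Type*} [Group G] {F : Type} [Field F] [Fintype F] [DecidableEq F]

/-- Two commuting members with a model sending the second to the standard point. -/
structure Frame (D : Set G) (d a : G) (hF : Fintype.card F = 4) where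
  hd : d ∈ D
  ha : a ∈ Sset D d
  /-- The model at the first member. -/
  N : CentModel D d hF
  hNa : N.φ ⟨a, sset_mem_cent ha⟩ = timg hF vv

theorem Data.exists_frame {D : Set G} {hF : Fintype.card F = 4} (hD : Data D hF) {d a : G}
    (hd : d ∈ D) (ha : a ∈ Sset D d) : Nonempty (Frame D d a hF) := by
  obtain ⟨M⟩ := hD.models d hd
  obtain ⟨N, hN⟩ := M.exists_point ha
  exact ⟨⟨hd, ha, N, hN⟩⟩

namespace Frame

variable {D : Set G} {d a : G} {hF : Fintype.card F = 4} (P : Frame D d a hF)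

/-- The centraliser of the two members. -/
abbrev K (_P : Frame D d a hF) : Subgroup G := Subgroup.centralizer ({d, a} : Set G)

theorem mem_K_iff {g : G} : g ∈ P.K ↔ Commute g d ∧ Commute g a := by
  rw [K, Subgroup.mem_centralizer_iff]
  simp only [Set.mem_insert_iff, Set.mem_singleton_iff, forall_eq_or_imp, forall_eq]
  exact ⟨fun h => ⟨h.1.symm, h.2.symm⟩, fun h => ⟨h.1.eq.symm, h.2.eq.symm⟩⟩

theorem K_le : P.K ≤ Subgroup.centralizer ({d} : Set G) := fun _ hg =>
  Subgroup.mem_centralizer_singleton_iff.2 (P.mem_K_iff.1 hg).1.eq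

/-- The model restricted to the centraliser of both members. -/
def phi : ↥P.K →* Cfsg.PSU 6 F 2 := P.N.φ.comp (Subgroup.inclusion P.K_le)

variable (hD : Data D hF)
include P hD

theorem phi_mem (x : ↥P.K) : P.phi x ∈ (pointStab F).map mkP := by
  rw [← centralizer_timg_vv hF, Subgroup.mem_centralizer_singleton_iff, ← P.hNa]
  exact ((P.N.commute_partner_iff hD.conj (Subgroup.inclusion P.K_le x) ⟨a, _⟩ P.ha).1
    (P.mem_K_iff.1 x.2).2).eq

/-- The map onto `SU 4`. -/
noncomputable def pi : ↥P.K →* ↥(Cfsg.SU 4 F 2) :=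
  (piP hF).comp (P.phi.codRestrict _ (P.phi_mem hD))

theorem exists_phi {p : Cfsg.PSU 6 F 2} (hp : p ∈ (pointStab F).map mkP) :
    ∃ x : ↥P.K, P.phi x = p := by
  obtain ⟨y, rfl⟩ := P.N.surj p
  rw [← centralizer_timg_vv hF, Subgroup.mem_centralizer_singleton_iff, ← P.hNa] at hp
  exact ⟨⟨y.1, P.mem_K_iff.2 ⟨Subgroup.mem_centralizer_singleton_iff.1 y.2,
    (P.N.commute_partner_iff hD.conj y ⟨a, sset_mem_cent P.ha⟩ P.ha).2 hp⟩⟩, rfl⟩

theorem exists_blk (h : ↥(Cfsg.SU 4 F 2)) :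
    ∃ x : ↥P.K, P.phi x = mkP (blk h) ∧ P.pi hD x = h := by
  obtain ⟨x, hx⟩ := P.exists_phi hD (blkP_mem hF h)
  refine ⟨x, hx, ?_⟩
  show piP hF ⟨P.phi x, _⟩ = h
  simp only [hx]
  exact piP_blk hF h

theorem pi_surjective : Function.Surjective (P.pi hD) := fun h =>
  ⟨(P.exists_blk hD h).choose, (P.exists_blk hD h).choose_spec.2⟩

theorem mem_ker_pi (x : ↥P.K) : x ∈ (P.pi hD).ker ↔ P.phi x ∈ radP hF := by
  rw [MonoidHom.mem_ker]
  exact piP_eq_one_iff hF _

theorem exists_ker_muP (m : Fin 4 → F) :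
    ∃ e ∈ (P.pi hD).ker, muP hF (P.phi e) = m := by
  obtain ⟨y, hy, hm⟩ := exists_muP hF m
  obtain ⟨e, rfl⟩ := P.exists_phi hD (radP_le hF hy)
  exact ⟨e, (P.mem_ker_pi hD e).2 hy, hm⟩

theorem d_mem : d ∈ P.K := P.mem_K_iff.2 ⟨Commute.refl d, P.ha.2.2⟩

theorem a_mem : a ∈ P.K := P.mem_K_iff.2 ⟨P.ha.2.2.symm, Commute.refl a⟩

theorem mem_V_iff {g : G} : g ∈ Subgroup.closure ({d, a} : Set G) ↔
    g = 1 ∨ g = d ∨ g = a ∨ g = d * a := by
  have hdd := hD.sq P.hd
  have haa := hD.sq P.ha.1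
  have hda : a * d = d * a := P.ha.2.2.eq.symm
  constructor
  · intro hg
    induction hg using Subgroup.closure_induction with
    | mem y hy => rcases hy with rfl | rfl <;> simp
    | one => exact Or.inl rfl
    | mul u v _ _ hu hv =>
      rcases hu with rfl | rfl | rfl | rfl <;> rcases hv with rfl | rfl | rfl | rfl <;>
        simp [hdd, haa, hda, ← mul_assoc] <;>
        simp [mul_assoc, hdd, haa, hda] <;> simp [← mul_assoc, hdd, haa]
    | inv u _ hu =>
      rcases hu with rfl | rfl | rfl | rfl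
      · simp
      · exact Or.inr (Or.inl (inv_eq_of_mul_eq_one_right hdd))
      · exact Or.inr (Or.inr (Or.inl (inv_eq_of_mul_eq_one_right haa)))
      · refine Or.inr (Or.inr (Or.inr ?_))
        rw [mul_inv_rev, inv_eq_of_mul_eq_one_right hdd, inv_eq_of_mul_eq_one_right haa, hda]
  · rintro (rfl | rfl | rfl | rfl)
    · exact one_mem _
    · exact Subgroup.subset_closure (by simp)
    · exact Subgroup.subset_closure (by simp)
    · exact mul_mem (Subgroup.subset_closure (by simp)) (Subgroup.subset_closure (by simp))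

theorem phi_eq_one_iff (x : ↥P.K) : P.phi x = 1 ↔ (x : G) = 1 ∨ (x : G) = d := P.N.ker _

theorem phi_a : P.phi ⟨a, P.a_mem hD⟩ = timg hF vv := P.hNa

theorem mem_V_iff_phi (x : ↥P.K) : (x : G) ∈ Subgroup.closure ({d, a} : Set G) ↔
    P.phi x = 1 ∨ P.phi x = timg hF vv := by
  have hiff : P.phi x = P.phi ⟨a, P.a_mem hD⟩ ↔
      ((x⁻¹ * ⟨a, P.a_mem hD⟩ : ↥P.K) : G) = 1 ∨ ((x⁻¹ * ⟨a, P.a_mem hD⟩ : ↥P.K) : G) = d := by
    rw [← P.phi_eq_one_iff hD, map_mul, map_inv, inv_mul_eq_one]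
  rw [P.mem_V_iff hD, P.phi_eq_one_iff hD x, ← P.phi_a hD, hiff]
  have haa := hD.sq P.ha.1
  constructor
  · rintro (h | h | h | h)
    · exact Or.inl (Or.inl h)
    · exact Or.inl (Or.inr h)
    · refine Or.inr (Or.inl ?_)
      simp [h]
    · refine Or.inr (Or.inr ?_)
      simp only [Subgroup.coe_mul, Subgroup.coe_inv, h, mul_inv_rev, inv_eq_of_mul_eq_one_right haa]
      rw [inv_eq_of_mul_eq_one_right (hD.sq P.hd), P.ha.2.2.eq.symm]
      simp [mul_assoc, haa]
  · rintro ((h | h) | h | h)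
    · exact Or.inl h
    · exact Or.inr (Or.inl h)
    · simp only [Subgroup.coe_mul, Subgroup.coe_inv, inv_mul_eq_one] at h
      exact Or.inr (Or.inr (Or.inl h))
    · simp only [Subgroup.coe_mul, Subgroup.coe_inv, inv_mul_eq_iff_eq_mul] at h
      refine Or.inr (Or.inr (Or.inr ?_))
      calc (x : G) = (x : G) * (d * d) := by rw [hD.sq P.hd, mul_one]
        _ = (x : G) * d * d := by rw [mul_assoc]
        _ = a * d := by rw [← h]
        _ = _ := P.ha.2.2.eq.symm

theorem ker_comm {x y : ↥P.K} (hx : x ∈ (P.pi hD).ker) (hy : y ∈ (P.pi hD).ker) :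
    ((x * y * x⁻¹ * y⁻¹ : ↥P.K) : G) ∈ Subgroup.closure ({d, a} : Set G) := by
  rw [P.mem_V_iff_phi hD, map_mul, map_mul, map_mul, map_inv, map_inv]
  exact radP_comm hF ((P.mem_ker_pi hD x).1 hx) ((P.mem_ker_pi hD y).1 hy)

theorem ker_sq {x : ↥P.K} (hx : x ∈ (P.pi hD).ker) :
    ((x * x : ↥P.K) : G) ∈ Subgroup.closure ({d, a} : Set G) := by
  rw [P.mem_V_iff_phi hD, map_mul]
  exact radP_sq hF ((P.mem_ker_pi hD x).1 hx)

theorem mem_ker_of_mem_V {x : ↥P.K} (hx : (x : G) ∈ Subgroup.closure ({d, a} : Set G)) :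
    x ∈ (P.pi hD).ker := by
  rw [P.mem_ker_pi hD]
  rcases (P.mem_V_iff_phi hD x).1 hx with h | h <;> rw [h]
  · exact one_mem _
  · exact timg_vv_mem_radP hF

theorem mem_V_iff_muP {x : ↥P.K} (hx : x ∈ (P.pi hD).ker) :
    (x : G) ∈ Subgroup.closure ({d, a} : Set G) ↔ muP hF (P.phi x) = 0 := by
  rw [P.mem_V_iff_phi hD, muP_eq_zero_iff hF ((P.mem_ker_pi hD x).1 hx)]

/-- An element centralising the kernel lies in it. -/
theorem mem_ker_of_commute {x : ↥P.K} (hx : ∀ e ∈ (P.pi hD).ker, Commute x e) :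
    x ∈ (P.pi hD).ker := by
  obtain ⟨y, hy, hpy⟩ := P.exists_blk hD (P.pi hD x)
  obtain ⟨r, hr, hxr⟩ : ∃ r ∈ (P.pi hD).ker, x = y * r :=
    ⟨y⁻¹ * x, MonoidHom.mem_ker.2 (by rw [map_mul, map_inv, hpy, inv_mul_cancel]),
      (mul_inv_cancel_left y x).symm⟩
  refine MonoidHom.mem_ker.2 (ext_act fun m => ?_)
  rw [act_one]
  obtain ⟨e, he, hem⟩ := P.exists_ker_muP hD m
  have hR := (P.mem_ker_pi hD e).1 he
  have hR' := (P.mem_ker_pi hD r).1 hr
  have hmem : P.phi (r * e * r⁻¹) ∈ radP hF := by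
    rw [map_mul, map_mul, map_inv]; exact mul_mem (mul_mem hR' hR) (inv_mem hR')
  have hmu : muP hF (P.phi (r * e * r⁻¹)) = m := by
    rw [map_mul, map_mul, map_inv, muP_mul hF (mul_mem hR' hR) (inv_mem hR'), muP_mul hF hR' hR,
      muP_inv hF hR', hem, add_comm (muP hF (P.phi r)) m, add_assoc]
    funext i
    simp only [Pi.add_apply]
    rw [add_self hF, add_zero]
  have h1 := (muP_conj hF (P.pi hD x) hmem).2
  rw [hmu, ← hy, ← map_inv, ← map_mul, ← map_mul,
    show y * (r * e * r⁻¹) * y⁻¹ = x * e * x⁻¹ by rw [hxr]; group, (hx e he).eq,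
    mul_inv_cancel_right, hem] at h1
  exact h1.symm

/-- A central element of the kernel is in `V`. -/
theorem mem_V_of_commute {x : ↥P.K} (hxk : x ∈ (P.pi hD).ker)
    (hx : ∀ e ∈ (P.pi hD).ker, Commute x e) :
    (x : G) ∈ Subgroup.closure ({d, a} : Set G) := by
  rw [P.mem_V_iff_muP hD hxk]
  by_contra hne
  obtain ⟨l, hl0, hl1⟩ : ∃ l : F, l ≠ 0 ∧ l ≠ 1 := by
    by_contra hn
    push Not at hn
    have h2 : Fintype.card F ≤ 2 := by
      calc Fintype.card F = (Finset.univ : Finset F).card := rfl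
        _ ≤ ({0, 1} : Finset F).card := Finset.card_le_card fun x _ => by
            rcases eq_or_ne x 0 with h | h
            · simp [h]
            · simp [hn x h]
        _ ≤ 2 := Finset.card_le_two
    omega
  obtain ⟨z, hz⟩ := exists_one hF hne
  obtain ⟨e, he, hem⟩ := P.exists_ker_muP hD (l • z)
  refine radP_not_commute hF ((P.mem_ker_pi hD x).1 hxk) ((P.mem_ker_pi hD e).1 he) ?_
    (((hx e he).map P.phi).eq)
  rw [hem, herm_smul_right hF, herm_smul_left hF, hz, ← herm_conj hF, hz, one_pow, mul_one,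
    mul_one]
  exact fun h => hl1 (mul_left_cancel₀ hl0 (by rw [mul_one, ← pow_two, h]))

theorem V_le : Subgroup.closure ({d, a} : Set G) ≤ P.K := by
  rw [Subgroup.closure_le]
  rintro g (rfl | rfl)
  · exact P.d_mem hD
  · exact P.a_mem hD

theorem center_K : (Subgroup.center ↥P.K).map P.K.subtype = Subgroup.closure ({d, a} : Set G) := by
  ext g
  constructor
  · intro hg
    obtain ⟨x, hx, rfl⟩ := Subgroup.mem_map.1 hg
    have hc : ∀ e ∈ (P.pi hD).ker, Commute x e := fun e _ => (Subgroup.mem_center_iff.1 hx e).symm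
    exact P.mem_V_of_commute hD (P.mem_ker_of_commute hD hc) hc
  · intro hg
    refine Subgroup.mem_map.2 ⟨⟨g, P.V_le hD hg⟩, Subgroup.mem_center_iff.2 fun y => ?_, rfl⟩
    obtain ⟨y1, y2⟩ := P.mem_K_iff.1 y.2
    refine Subtype.ext ?_
    show (y : G) * g = g * (y : G)
    rcases (P.mem_V_iff hD).1 hg with rfl | rfl | rfl | rfl
    · simp
    · exact y1.eq
    · exact y2.eq
    · exact (y1.mul_right y2).eq

variable [Finite G]

theorem card_ker : Nat.card ↥(P.pi hD).ker = 1024 := by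
  have heq : (P.pi hD).ker.map P.K.subtype =
      ((radP hF).comap P.N.φ).map (Subgroup.centralizer ({d} : Set G)).subtype := by
    ext g
    constructor
    · intro hg
      obtain ⟨x, hx, rfl⟩ := Subgroup.mem_map.1 hg
      exact Subgroup.mem_map.2 ⟨Subgroup.inclusion P.K_le x, (P.mem_ker_pi hD x).1 hx, rfl⟩
    · intro hg
      obtain ⟨x, hx, rfl⟩ := Subgroup.mem_map.1 hg
      have hx' := radP_le hF (Subgroup.mem_comap.1 hx)
      rw [← centralizer_timg_vv hF, Subgroup.mem_centralizer_singleton_iff, ← P.hNa] at hx'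
      have hK : (x : G) ∈ P.K := P.mem_K_iff.2 ⟨Subgroup.mem_centralizer_singleton_iff.1 x.2,
        (P.N.commute_partner_iff hD.conj x ⟨a, sset_mem_cent P.ha⟩ P.ha).2 hx'⟩
      exact Subgroup.mem_map.2 ⟨⟨x.1, hK⟩, (P.mem_ker_pi hD _).2 hx, rfl⟩
  rw [← Subgroup.card_map_of_injective P.K.subtype_injective, heq,
    Subgroup.card_map_of_injective (Subgroup.subtype_injective _), card_comap P.N.surj,
    P.N.card_ker (hD.ne_one P.hd), card_radP hF]

theorem card_K : Nat.card ↥P.K = 1024 * 25920 := by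
  rw [← (P.pi hD).ker.card_mul_index, P.card_ker hD, Subgroup.index_ker,
    MonoidHom.range_eq_top.2 (P.pi_surjective hD), Subgroup.card_top, card_SU_four hF]

end Frame

end Cfsg.Agent.H97.M22
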